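/-
General lemmas: self-normalising 2-subgroups, dihedral arguments.
-/
import Cfsg.Agent.H9.J1Gen
import Cfsg.Agent.H4.ZStar
import Cfsg.Agent.S0111

set_option autoImplicit false
set_option linter.style.haveILetI false

namespace CfsgH9.Hd

open Subgroup CfsgH4 CfsgH9.J1

variable {G : Type*} [Group G]

/-- a self-normalising 2-subgroup of `M` -/
structure SN (R M : Subgroup G) : Prop where
  le : R ≤ M
  two : IsPGroup 2 R
  norm : ∀ g ∈ M, (∀ x ∈ R, g * x * g⁻¹ ∈ R) → g ∈ R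

theorem SN.mono {R M M' : Subgroup G} (h : SN R M) (h1 : R ≤ M') (h2 : M' ≤ M) : SN R M' :=
  ⟨h1, h.two, fun g hg => h.norm g (h2 hg)⟩

theorem SN.sylow [Finite G] {R M : Subgroup G} (h : SN R M) :
    ∃ P : Sylow 2 M, (P : Subgroup M) = R.subgroupOf M := by
  have h1 : IsPGroup 2 (R.subgroupOf M) := h.two.comap_of_injective _ M.subtype_injective
  obtain ⟨P, hP⟩ := h1.exists_le_sylow
  refine ⟨P, (hP.eq_or_lt.resolve_right fun hl => ?_).symm⟩
  obtain ⟨x, -, hx, hn⟩ := exists_mem_normalizer_of_lt P.isPGroup' hl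
  refine hx (h.norm x x.2 fun y hy => ?_)
  exact (mem_normalizer_iff.1 hn ⟨y, h.le hy⟩).1 hy

theorem SN.conj [Finite G] {R M P : Subgroup G} (h : SN R M) (hP : P ≤ M) (h2 : IsPGroup 2 P) :
    ∃ m ∈ M, ∀ x ∈ P, m * x * m⁻¹ ∈ R := by
  obtain ⟨Q, hQ⟩ := h.sylow
  obtain ⟨g, hg⟩ := exists_conj_le_sylow Q (H := P.subgroupOf M)
    (h2.comap_of_injective _ M.subtype_injective)
  refine ⟨g, g.2, fun x hx => ?_⟩
  have : g * ⟨x, hP hx⟩ * g⁻¹ ∈ (Q : Subgroup M) := hg ⟨x, hP hx⟩ hx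
  rw [hQ] at this
  exact this

theorem card_le_of_conj [Finite G] {P R : Subgroup G} {m : G} (h : ∀ x ∈ P, m * x * m⁻¹ ∈ R) :
    Nat.card P ≤ Nat.card R :=
  Nat.card_le_card_of_injective (fun x : P => (⟨m * x * m⁻¹, h x x.2⟩ : R)) fun a b e =>
    Subtype.ext (by simpa using e)

theorem SN.card_le [Finite G] {R M P : Subgroup G} (h : SN R M) (hP : P ≤ M) (h2 : IsPGroup 2 P) :
    Nat.card P ≤ Nat.card R :=
  let ⟨_, _, hm⟩ := h.conj hP h2
  card_le_of_conj hm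

theorem SN.conj_elt [Finite G] {R M : Subgroup G} (h : SN R M) {x : G} (hx : x ∈ M) {k : ℕ}
    (hk : x ^ 2 ^ k = 1) : ∃ m ∈ M, m * x * m⁻¹ ∈ R :=
  let ⟨m, hm, e⟩ := h.conj ((zpowers_le).2 hx) (isPGroup_zpowers_of_pow hk)
  ⟨m, hm, e x (mem_zpowers x)⟩

theorem SN.transfer [Finite G] {R M S : Subgroup G} (h : SN R M) (hS : S ≤ R)
    (hi : S.relIndex R = 2) {y : G} (hy : y ∈ R) (hyS : y ∉ S) (y2 : y * y = 1)
    (hf : ∀ m ∈ M, m * y * m⁻¹ ∉ S) :
    ∃ M0 ≤ M, y ∉ M0 ∧ ∀ a ∈ M, ∀ b ∈ M, (a * b ∈ M0 ↔ (a ∈ M0 ↔ b ∈ M0)) := by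
  obtain ⟨P, hP⟩ := h.sylow
  have y1 : y ≠ 1 := fun e => hyS (e ▸ S.one_mem)
  rcases Cfsg.Agent.S0111.result P (S.subgroupOf M) (by rw [hP]; exact fun x hx => hS hx)
    (by rw [hP, relIndex_subgroupOf h.le, hi]) ⟨y, h.le hy⟩
    (orderOf_eq_two_iff.2 ⟨Subtype.ext y2, fun e => y1 (congrArg Subtype.val e)⟩)
    (by rw [hP]; exact hy) hyS with ⟨N, -, hN, hu⟩ | ⟨g, hg⟩
  · have e : ∀ a : M, (a : G) ∈ N.map M.subtype ↔ a ∈ N := fun a =>
      ⟨fun ⟨b, hb, e⟩ => by rwa [← Subtype.ext e], fun ha => ⟨a, ha, rfl⟩⟩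
    refine ⟨N.map M.subtype, map_subtype_le N, fun h1 => hu ((e ⟨y, h.le hy⟩).1 h1),
      fun a ha b hb => ?_⟩
    rw [e ⟨a, ha⟩, e ⟨b, hb⟩, ← mul_mem_iff_of_index_two hN]
    exact e (⟨a, ha⟩ * ⟨b, hb⟩)
  · exact absurd hg (hf g g.2)

theorem exists_odd_pow [Finite G] (g : G) : ∃ m k : ℕ, Odd m ∧ (g ^ m) ^ 2 ^ k = 1 := by
  obtain ⟨k, m, hm, e⟩ := Nat.exists_eq_two_pow_mul_odd (orderOf_pos g).ne'
  exact ⟨m, k, hm, by rw [← pow_mul, mul_comm, ← e, pow_orderOf_eq_one]⟩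

theorem inverts_of_fpf [Finite G] {O : Subgroup G} {u : G} (u2 : u * u = 1)
    (hn : ∀ x ∈ O, u * x * u⁻¹ ∈ O) (hc : ∀ x ∈ O, u * x * u⁻¹ = x → x = 1) :
    ∀ x ∈ O, u * x * u⁻¹ = x⁻¹ := by
  let f : O → O := fun x => ⟨(x : G)⁻¹ * (u * x * u⁻¹), O.mul_mem (O.inv_mem x.2) (hn x x.2)⟩
  have hf : Function.Injective f := fun a b e => by
    have e1 : (a : G)⁻¹ * (u * a * u⁻¹) = (b : G)⁻¹ * (u * b * u⁻¹) := congrArg Subtype.val e
    have := hc ((b : G) * (a : G)⁻¹) (O.mul_mem b.2 (O.inv_mem a.2)) (by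
      rw [show u * ((b : G) * (a : G)⁻¹) * u⁻¹ = b * ((b : G)⁻¹ * (u * b * u⁻¹)) *
        (u * a * u⁻¹)⁻¹ by group, ← e1]; group)
    exact Subtype.ext (mul_inv_eq_one.1 this).symm
  intro x hx
  obtain ⟨a, ha⟩ := Finite.surjective_of_injective hf ⟨x, hx⟩
  have e : x = (a : G)⁻¹ * (u * a * u⁻¹) := (congrArg Subtype.val ha).symm
  have ui : u⁻¹ = u := inv_eq_of_mul_eq_one_left u2
  rw [e, show u * ((a : G)⁻¹ * (u * a * u⁻¹)) * u⁻¹ = u * (a : G)⁻¹ * u * a * (u * u)⁻¹ by group, u2,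
    mul_inv_rev, mul_inv_rev, mul_inv_rev, inv_inv, inv_inv, ui]
  group

theorem eq_one_of_four [Finite G] {O : Subgroup G} {u v : G}
    (u2 : u * u = 1) (v2 : v * v = 1)
    (hu : ∀ x ∈ O, u * x * u⁻¹ ∈ O) (hv : ∀ x ∈ O, v * x * v⁻¹ ∈ O)
    (cu : ∀ x ∈ O, u * x * u⁻¹ = x → x = 1) (cv : ∀ x ∈ O, v * x * v⁻¹ = x → x = 1)
    (cw : ∀ x ∈ O, u * v * x * (u * v)⁻¹ = x → x = 1) : ∀ x ∈ O, x = 1 := by
  intro x hx
  refine cw x hx ?_
  rw [show u * v * x * (u * v)⁻¹ = u * (v * x * v⁻¹) * u⁻¹ by group, inverts_of_fpf v2 hv cv x hx,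
    inverts_of_fpf u2 hu cu _ (O.inv_mem hx), inv_inv]

theorem cent_of_not_conj [Finite G] {x y : G} (hx : x * x = 1) (hy : y * y = 1)
    (h : ¬ Odd (orderOf (x * y))) : ∃ e, e * e = 1 ∧ e ≠ 1 ∧ Commute e x ∧ Commute e y ∧
      (IsConj x (e * x) ∨ IsConj y (e * x)) := by
  obtain ⟨e, ⟨n, rfl⟩, h1, h2, h3, h4⟩ := (odd_or_central hx hy).resolve_left h
  refine ⟨_, h1, h2, h3, h4, ?_⟩
  rcases Int.even_or_odd n with h5 | h5
  · exact .inl ((dih_zpow_mul_isConj hx hy _).1 h5)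
  · exact .inr ((dih_zpow_mul_isConj hx hy _).2 h5)

/-- a subgroup that contains the centralisers of its involutions and two classes -/
theorem eq_top_of_two [Finite G] {K : Subgroup G} {z t : G} (z2 : z * z = 1) (t2 : t * t = 1)
    (hzt : ¬ IsConj z t) (ht : ∀ g, Commute g t → g ∈ K)
    (hC : ∀ e ∈ K, e * e = 1 → e ≠ 1 → ∀ g, Commute g e → g ∈ K)
    (hz : ∀ g, g * z * g⁻¹ ∈ K → g ∈ K) : K = ⊤ := by
  refine top_unique fun g _ => hz g ?_
  have h1 : g * z * g⁻¹ * (g * z * g⁻¹) = 1 := by rw [conj_mul, z2]; group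
  obtain ⟨e, e2, e1, c1, c2, -⟩ := cent_of_not_conj h1 t2 fun ho =>
    hzt ((isConj_iff.2 ⟨g, rfl⟩).trans (dih_isConj_of_odd h1 t2 ho))
  exact hC e (ht e c2) e2 e1 _ c1.symm

section block

variable {z : G}

/-- `u` acts as a transvection on the commuting conjugates of `v` -/
def Tv (z u v : G) : Prop := u * u = 1 ∧
  (∀ r, IsConj z r → Commute v r → u * r * u⁻¹ = r ∨ u * r * u⁻¹ = r * v) ∧
  ∃ r, IsConj z r ∧ Commute v r ∧ u * r * u⁻¹ = r * v

theorem conj_commute {a b : G} (g : G) (h : Commute a b) :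
    Commute (g * a * g⁻¹) (g * b * g⁻¹) := by
  rw [Commute, SemiconjBy, conj_mul, conj_mul, h.eq]

theorem isConj_conj {a b : G} (g : G) (h : IsConj a b) : IsConj a (g * b * g⁻¹) :=
  h.trans (isConj_iff.2 ⟨g, rfl⟩)

theorem Tv.conj {u v : G} (h : Tv z u v) (g : G) : Tv z (g * u * g⁻¹) (g * v * g⁻¹) := by
  obtain ⟨h1, h2, r, h3, h4, h5⟩ := h
  refine ⟨by rw [conj_mul, h1]; group, fun s hs hc => ?_, g * r * g⁻¹, isConj_conj g h3,
    conj_commute g h4, ?_⟩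
  · have := h2 (g⁻¹ * s * g⁻¹⁻¹) (isConj_conj _ hs) (by simpa [mul_assoc] using conj_commute g⁻¹ hc)
    rcases this with e | e
    · left
      rw [show g * u * g⁻¹ * s * (g * u * g⁻¹)⁻¹ = g * (u * (g⁻¹ * s * g⁻¹⁻¹) * u⁻¹) * g⁻¹ by group, e]
      group
    · right
      rw [show g * u * g⁻¹ * s * (g * u * g⁻¹)⁻¹ = g * (u * (g⁻¹ * s * g⁻¹⁻¹) * u⁻¹) * g⁻¹ by group, e]
      group
  · rw [show g * u * g⁻¹ * (g * r * g⁻¹) * (g * u * g⁻¹)⁻¹ = g * (u * r * u⁻¹) * g⁻¹ by group, h5]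
    group

/-- the commuting conjugates of `z` form an elementary abelian group with at least 8 elements -/
structure Blk (z : G) : Prop where
  sq : z * z = 1
  ne : z ≠ 1
  com : ∀ u v, IsConj z u → IsConj z v → Commute z u → Commute z v →
    Commute u v ∧ (u = v ∨ IsConj z (u * v))
  big : ∃ x y, IsConj z x ∧ IsConj z y ∧ IsConj z (x * y) ∧ Commute z x ∧ Commute z y ∧
    x ≠ z ∧ y ≠ z ∧ x * y ≠ z

theorem Blk.com' (h : Blk z) {w u v : G} (hw : IsConj z w) (hu : IsConj z u) (hv : IsConj z v)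
    (c1 : Commute w u) (c2 : Commute w v) : Commute u v ∧ (u = v ∨ IsConj z (u * v)) := by
  obtain ⟨g, rfl⟩ := isConj_iff.1 hw
  obtain ⟨h1, h2⟩ := h.com (g⁻¹ * u * g⁻¹⁻¹) (g⁻¹ * v * g⁻¹⁻¹) (isConj_conj _ hu) (isConj_conj _ hv)
    (by simpa [mul_assoc] using conj_commute g⁻¹ c1) (by simpa [mul_assoc] using conj_commute g⁻¹ c2)
  refine ⟨by simpa [mul_assoc] using conj_commute g h1, h2.imp (fun e => by simpa using e) fun e => ?_⟩
  simpa [mul_assoc] using isConj_conj g e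

theorem Blk.sq' (h : Blk z) {v : G} (hv : IsConj z v) : v * v = 1 := mul_self_of_isConj h.sq hv

theorem Blk.ne' (h : Blk z) {v : G} (hv : IsConj z v) : v ≠ 1 := fun e =>
  h.ne (isConj_one_right.1 (e ▸ hv).symm)

theorem Blk.mem (h : Blk z) {v e : G} (hv : IsConj z v) (e1 : e ≠ 1) (c : Commute e v)
    (he : IsConj z (e * v)) : IsConj z e := by
  rcases (h.com' hv he hv (c.symm.mul_right (Commute.refl v)) (Commute.refl v)).2 with e2 | e2
  · exact absurd (by simpa using e2) e1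
  · rwa [mul_assoc, h.sq' hv, mul_one] at e2

theorem Blk.odd [Finite G] (h : Blk z) {v w : G} (hv : IsConj z v) (hw : IsConj z w)
    (hc : ¬ Commute v w) : Odd (orderOf (v * w)) := by
  by_contra ho
  obtain ⟨e, -, e1, c1, c2, h3⟩ := cent_of_not_conj (h.sq' hv) (h.sq' hw) ho
  exact hc (h.com' (h.mem hv e1 c1 (h3.elim hv.trans hw.trans)) hv hw c1 c2).1

theorem Blk.fix [Finite G] (h : Blk z) {u v w : G} (hv : IsConj z v) (hw : IsConj z w)
    (hu : Tv z u v) (hc : Commute (u * w * u⁻¹) w) : Commute v w := by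
  by_contra hn
  obtain ⟨u2, h2, r, h3, h4, h5⟩ := hu
  have ui : u⁻¹ = u := inv_eq_of_mul_eq_one_left u2
  obtain ⟨w', hw', cw, fw⟩ : ∃ w', IsConj z w' ∧ Commute w w' ∧ u * w' * u⁻¹ = w' := by
    rcases (h.com' hw (isConj_conj u hw) hw hc.symm (Commute.refl w)).2 with e | e
    · exact ⟨w, hw, Commute.refl w, e⟩
    · refine ⟨_, e, hc.symm.mul_right (Commute.refl w), ?_⟩
      rw [show u * (u * w * u⁻¹ * w) * u⁻¹ = (u * u) * w * (u * u)⁻¹ * (u * w * u⁻¹) by group, u2]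
      simpa using hc.symm.eq
  obtain ⟨x, hx, cx, fx, xv⟩ : ∃ x, IsConj z x ∧ Commute v x ∧ u * x * u⁻¹ = x ∧ x ≠ v := by
    obtain ⟨g, rfl⟩ := isConj_iff.1 hv
    obtain ⟨x, y, a1, a2, a3, c1, c2, n1, n2, n3⟩ := h.big
    have inj : ∀ a : G, a ≠ z → g * a * g⁻¹ ≠ g * z * g⁻¹ := fun a ha e => ha (by simpa using e)
    rcases h2 _ (isConj_conj g a1) (conj_commute g c1) with e1 | e1
    · exact ⟨_, isConj_conj g a1, conj_commute g c1, e1, inj _ n1⟩
    rcases h2 _ (isConj_conj g a2) (conj_commute g c2) with e2 | e2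
    · exact ⟨_, isConj_conj g a2, conj_commute g c2, e2, inj _ n2⟩
    refine ⟨_, isConj_conj g a3, conj_commute g (c1.mul_right c2), ?_, inj _ n3⟩
    rw [← conj_mul (b := g) (a := x), ← conj_mul (b := u), e1, e2, conj_mul, conj_mul, conj_mul, conj_mul,
      show x * z * (y * z) = x * (z * y) * z by group, c2.eq,
      show x * (y * z) * z = x * y * (z * z) by group, h.sq, mul_one]
  have fv : u * v * u⁻¹ = v := (h2 v hv (Commute.refl v)).resolve_right fun e =>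
    h.ne' (isConj_conj u hv) (e.trans (h.sq' hv))
  have n1 : ¬ Commute v w' := fun c => hn (h.com' hw' hv hw c.symm cw.symm).1
  have n2 : ¬ Commute x w' := fun c => n1 (h.com' hx hv hw' cx.symm c).1
  obtain ⟨a, ha⟩ := dih_conj_of_odd (h.sq' hv) (h.sq' hw') (h.odd hv hw' n1)
  obtain ⟨b, hb⟩ := dih_conj_of_odd (h.sq' hx) (h.sq' hw') (h.odd hx hw' n2)
  have cu : ∀ p : G, u * p * u⁻¹ = p → Commute u p := fun p e => mul_inv_eq_iff_eq_mul.1 e
  have ck : Commute u ((x * w') ^ b * ((v * w') ^ a)⁻¹) :=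
    (((cu _ fx).mul_right (cu _ fw)).pow_right b).mul_right
      (((cu _ fv).mul_right (cu _ fw)).pow_right a).inv_right
  generalize (v * w') ^ a = A at ha ck
  generalize (x * w') ^ b = B at hb ck
  have hk : B * A⁻¹ * v * (B * A⁻¹)⁻¹ = x := by rw [← ha, ← hb]; group
  generalize B * A⁻¹ = k at hk ck
  have c3 : Commute v (k * r * k⁻¹) :=
    (h.com' hx hv (isConj_conj k h3) cx.symm (hk ▸ conj_commute k h4)).1
  have e : u * (k * r * k⁻¹) * u⁻¹ = k * r * k⁻¹ * x := by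
    rw [← hk, conj_mul, ← h5, show u * (k * r * k⁻¹) * u⁻¹ = (u * k) * r * (u * k)⁻¹ by group, ck.eq]
    group
  rcases h2 _ (isConj_conj k h3) c3 with e' | e'
  · exact h.ne' hx (by rw [e] at e'; simpa using e')
  · exact xv (by rw [e] at e'; simpa using e')

theorem Blk.all [Finite G] (h : Blk z) {u : G} (hu : Tv z u z) (hn : ¬ IsConj z u) {w : G}
    (hw : IsConj z w) : Commute z w := by
  by_contra hc
  have hz := IsConj.refl z
  obtain ⟨e, e2, e1, c1, c2, h3⟩ := cent_of_not_conj (h.sq' hw) hu.1 fun ho =>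
    hn (hw.trans (dih_isConj_of_odd (h.sq' hw) hu.1 ho))
  have fz : u * z * u⁻¹ = z := (hu.2.1 z hz (Commute.refl z)).resolve_right fun e =>
    h.ne' (isConj_conj u hz) (e.trans h.sq)
  have c3 : Commute z (e * z * e⁻¹) := h.fix hz (isConj_conj e hz) hu (by
    rw [show u * (e * z * e⁻¹) * u⁻¹ = (u * e) * z * (u * e)⁻¹ by group, ← c2.eq,
      show e * u * z * (e * u)⁻¹ = e * (u * z * u⁻¹) * e⁻¹ by group, fz])
  rcases h3 with h3 | h3
  · have he := h.mem hw e1 c1 (hw.trans h3)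
    refine hc (h.com' he hz hw ?_ c1).1
    by_contra c4
    have h4 : (e * z) ^ 2 ^ 2 = 1 := by
      have ei : e⁻¹ = e := inv_eq_of_mul_eq_one_left e2
      have : (e * z) ^ 2 = e * z * e⁻¹ * z := by rw [ei, pow_two]; group
      rw [show 2 ^ 2 = 2 * 2 from rfl, pow_mul, this, c3.symm.mul_pow, pow_two, pow_two, h.sq,
        conj_mul, h.sq]
      group
    have := eq_one_of_odd_of_two_pow (h.odd he hz c4) (pow_orderOf_eq_one _) h4
    exact c4 (by rw [eq_inv_of_mul_eq_one_left this]; exact (Commute.refl z).inv_left)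
  · obtain ⟨k, hk⟩ := isConj_iff.1 h3
    have t1 := hu.conj k
    rw [hk] at t1
    have hv := isConj_conj k hz
    generalize k * z * k⁻¹ = v at t1 hv
    have c4 : Commute v w := h.fix hv hw t1 (by
      rw [(c1.mul_left (Commute.refl w)).eq, mul_inv_cancel_right])
    have e3 : ∀ r, IsConj z r → Commute v r → e * w * r * (e * w)⁻¹ = e * r * e⁻¹ := fun r hr cr => by
      rw [mul_assoc e, (h.com' hv hw hr c4 cr).1.eq]; group
    obtain ⟨-, t2, r, t3, t4, t5⟩ := t1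
    have t6 : Tv z e v := ⟨e2, fun r hr cr => e3 r hr cr ▸ t2 r hr cr, r, t3, t4, e3 r t3 t4 ▸ t5⟩
    exact hc (h.com' hv hz hw (h.fix hv hz t6 c3.symm) c4).1

end block

end CfsgH9.Hd
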