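import Mathlib

set_option autoImplicit false

namespace CfsgH9
open Module

variable {k V : Type*} [Field k] [AddCommGroup V] [Module k V]

/-- invariance of a subspace under the transvections described by `P` -/
def TInv (P : V → Dual k V → Prop) (X : Submodule k V) : Prop :=
  ∀ w ψ, P w ψ → ∀ x ∈ X, ψ x ≠ 0 → w ∈ X

/-- abstract system of (centre, axis) pairs of the transvections of a group -/
structure TS (P : V → Dual k V → Prop) : Prop where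
  two : (2 : k) ≠ 0
  ne_left : ∀ {u φ}, P u φ → u ≠ 0
  ne_right : ∀ {u φ}, P u φ → φ ≠ 0
  orth : ∀ {u φ}, P u φ → φ u = 0
  smul : ∀ {u φ} {c d : k}, P u φ → c ≠ 0 → d ≠ 0 → P (c • u) (d • φ)
  addL : ∀ {u w φ}, P u φ → P w φ → u + w ≠ 0 → P (u + w) φ
  addR : ∀ {u φ ψ}, P u φ → P u ψ → φ + ψ ≠ 0 → P u (φ + ψ)
  conj : ∀ {u φ w ψ}, P u φ → P w ψ → P (w + φ w • u) (ψ - ψ u • φ)
  quad : ∀ {x χ r ρ}, P (x + r) (χ + ρ) → P (x - r) (χ - ρ) → P x χ → χ r = 0 → ρ x = 0 → ρ r = 0 →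
    r ≠ 0 → ρ ≠ 0 → P r ρ
  red : ∀ {X : Submodule k V} {u φ}, TInv P X → P u φ → u ∈ X → ∃ x ∈ X, φ x ≠ 0

/-- neighbours of `u` -/
def TNb (P : V → Dual k V → Prop) (u : V) : Set V := {w | w = u ∨ ∃ ψ, P w ψ ∧ ψ u ≠ 0}

/-- the invariant subspace generated by `u` -/
def TW (P : V → Dual k V → Prop) (u : V) : Submodule k V := Submodule.span k (TNb P u)

theorem exists_of_span {s : Set V} {η : Dual k V} {x : V} (hx : x ∈ Submodule.span k s) (h : η x ≠ 0) :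
    ∃ y ∈ s, η y ≠ 0 := by
  by_contra hc
  push Not at hc
  apply h
  have : Submodule.span k s ≤ LinearMap.ker η := Submodule.span_le.2 fun y hy => hc y hy
  exact this hx

namespace TS
variable {P : V → Dual k V → Prop} (h : TS P)
include h

theorem smulL {u φ} {c : k} (h1 : P u φ) (hc : c ≠ 0) : P (c • u) φ := by
  simpa using h.smul h1 hc one_ne_zero

theorem smulR {u φ} {c : k} (h1 : P u φ) (hc : c ≠ 0) : P u (c • φ) := by
  simpa using h.smul h1 one_ne_zero hc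

theorem of_smulL {u φ} {c : k} (h1 : P (c • u) φ) (hc : c ≠ 0) : P u φ := by
  simpa [smul_smul, inv_mul_cancel₀ hc] using h.smulL h1 (inv_ne_zero hc)

theorem of_smulR {u φ} {c : k} (h1 : P u (c • φ)) (hc : c ≠ 0) : P u φ := by
  simpa [smul_smul, inv_mul_cancel₀ hc] using h.smulR h1 (inv_ne_zero hc)

theorem subL {u w φ} (h1 : P u φ) (h2 : P w φ) (h3 : u - w ≠ 0) : P (u - w) φ := by
  have := h.addL h1 (h.smulL h2 (neg_ne_zero.2 one_ne_zero)) (by simpa [sub_eq_add_neg] using h3)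
  simpa [sub_eq_add_neg] using this

theorem subR {u φ ψ} (h1 : P u φ) (h2 : P u ψ) (h3 : φ - ψ ≠ 0) : P u (φ - ψ) := by
  have e : φ + (-1 : k) • ψ = φ - ψ := by module
  have := h.addR h1 (h.smulR h2 (neg_ne_zero.2 one_ne_zero)) (by rwa [e])
  rwa [e] at this

theorem conj' {u φ w ψ} (h1 : P u φ) (h2 : P w ψ) (d : k) :
    P (w + (d * φ w) • u) (ψ - (d * ψ u) • φ) := by
  by_cases hd : d = 0
  · simpa [hd] using h2
  · have := h.conj (h.smulR h1 hd) h2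
    simpa [smul_smul, mul_comm] using this

theorem f1 {u φ w ψ} (h1 : P u φ) (h2 : P w ψ) (h3 : φ w ≠ 0) (h4 : ψ u = 0) : P u ψ := by
  have h5 := h.conj h1 h2
  rw [h4, zero_smul, sub_zero] at h5
  have h6 := h.subL h5 h2 (by simpa using ⟨h3, h.ne_left h1⟩)
  rw [add_sub_cancel_left] at h6
  exact h.of_smulL h6 h3

/-- the line through a centre and a centre moving it consists of centres -/
theorem line {u φ w ψ} (h1 : P u φ) (h2 : P w ψ) (h3 : φ w ≠ 0) (c : k) : ∃ χ, P (w + c • u) χ := by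
  have := h.conj' h1 h2 (c / φ w)
  rw [div_mul_cancel₀ _ h3] at this
  exact ⟨_, this⟩

theorem lineR {u φ w ψ} (h1 : P u φ) (h2 : P w ψ) (h3 : ψ u ≠ 0) (c : k) :
    ∃ d : k, P (w + d • u) (ψ + c • φ) := by
  have := h.conj' h1 h2 (-c / ψ u)
  have e : ψ - (-c) • φ = ψ + c • φ := by module
  rw [div_mul_cancel₀ _ h3, e] at this
  exact ⟨_, this⟩

omit h in
theorem mem_TW (u : V) : u ∈ TW P u := Submodule.subset_span (Or.inl rfl)

omit h in
theorem nb_mem_TW {u w ψ} (h1 : P w ψ) (h2 : ψ u ≠ 0) : w ∈ TW P u :=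
  Submodule.subset_span (Or.inr ⟨ψ, h1, h2⟩)

theorem inv_TW (u : V) : TInv P (TW P u) := by
  intro w ψ hw x hx hψ
  by_cases hu : ψ u = 0
  · obtain ⟨s, hs, hs'⟩ := exists_of_span hx hψ
    rcases hs with rfl | ⟨σ, h1, h2⟩
    · exact absurd hu hs'
    · have h3 := h.conj hw h1
      have h4 : s + ψ s • w ∈ TW P u := nb_mem_TW h3 (by simpa [hu] using h2)
      have h5 : ψ s • w ∈ TW P u := by
        simpa using Submodule.sub_mem _ h4 (nb_mem_TW h1 h2)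
      exact (Submodule.smul_mem_iff _ hs').1 h5
  · exact nb_mem_TW hw hu

omit h in
theorem TW_le {X : Submodule k V} (hX : TInv P X) {u : V} (hu : u ∈ X) : TW P u ≤ X := by
  refine Submodule.span_le.2 ?_
  rintro w (rfl | ⟨ψ, h1, h2⟩)
  · exact hu
  · exact hX w ψ h1 u hu h2

theorem TW_eq {u φ w ψ} (h1 : P u φ) (h2 : P w ψ) (h3 : ψ u ≠ 0) : TW P w = TW P u := by
  refine le_antisymm (TW_le (h.inv_TW u) (nb_mem_TW h2 h3)) (TW_le (h.inv_TW w) ?_)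
  by_contra hu
  have h4 : ∀ x ∈ TW P w, φ x = 0 := fun x hx => by
    by_contra h5
    exact hu (h.inv_TW w u φ h1 x hx h5)
  obtain ⟨x, hx, h5⟩ := h.red (h.inv_TW w) (h.f1 h2 h1 h3 (h4 w (mem_TW w))) (mem_TW w)
  exact h5 (h4 x hx)

end TS

/-- a component -/
structure TComp (P : V → Dual k V → Prop) (W : Submodule k V) : Prop where
  mem_iff : ∀ {u φ}, P u φ → (u ∈ W ↔ ∃ x ∈ W, φ x ≠ 0)
  eq_TW : ∀ {u φ}, P u φ → u ∈ W → TW P u = W
  ex : W ≠ ⊥ → ∃ u φ, P u φ ∧ u ∈ W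

/-- the span of the axes of a component -/
def TPhi (P : V → Dual k V → Prop) (W : Submodule k V) : Submodule k (Dual k V) :=
  Submodule.span k {φ | ∃ u ∈ W, P u φ}

namespace TS
variable {P : V → Dual k V → Prop} (h : TS P)
include h

theorem comp_bot : TComp P ⊥ :=
  ⟨fun h1 => ⟨fun h2 => absurd h2 (h.ne_left h1), fun ⟨x, hx, h2⟩ => by
    rw [(Submodule.mem_bot k).1 hx, map_zero] at h2; exact absurd rfl h2⟩,
    fun h1 h2 => absurd h2 (h.ne_left h1), fun h1 => absurd rfl h1⟩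

theorem comp_TW {u₀ φ₀} (h0 : P u₀ φ₀) : TComp P (TW P u₀) := by
  have key : ∀ {u φ}, P u φ → (∃ x ∈ TW P u₀, φ x ≠ 0) → TW P u = TW P u₀ := by
    rintro u φ h1 ⟨x, hx, h2⟩
    obtain ⟨s, hs, hs'⟩ := exists_of_span hx h2
    rcases hs with rfl | ⟨σ, h3, h4⟩
    · exact h.TW_eq h0 h1 hs'
    · rw [h.TW_eq h3 h1 hs', h.TW_eq h0 h3 h4]
  refine ⟨fun h1 => ⟨fun h2 => h.red (h.inv_TW u₀) h1 h2, fun h2 => key h1 h2 ▸ mem_TW _⟩,
    fun h1 h2 => key h1 (h.red (h.inv_TW u₀) h1 h2), fun _ => ⟨u₀, φ₀, h0, mem_TW _⟩⟩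

variable {W : Submodule k V} (hW : TComp P W)
include hW

omit h in
theorem nb {u φ} (h1 : P u φ) (hu : u ∈ W) {η : Dual k V} (hη : ∃ x ∈ W, η x ≠ 0) :
    η u ≠ 0 ∨ ∃ s σ, P s σ ∧ s ∈ W ∧ σ u ≠ 0 ∧ η s ≠ 0 := by
  obtain ⟨x, hx, h2⟩ := hη
  rw [← hW.eq_TW h1 hu] at hx
  obtain ⟨s, hs, hs'⟩ := exists_of_span hx h2
  rcases hs with rfl | ⟨σ, h3, h4⟩
  · exact Or.inl hs'
  · exact Or.inr ⟨s, σ, h3, (hW.mem_iff h3).2 ⟨u, hu, h4⟩, h4, hs'⟩

theorem opp {u φ} (h1 : P u φ) (hu : u ∈ W) : ∃ s σ, P s σ ∧ s ∈ W ∧ σ u ≠ 0 ∧ φ s ≠ 0 :=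
  (nb hW h1 hu ((hW.mem_iff h1).1 hu)).resolve_left (fun h2 => h2 (h.orth h1))

omit h in
theorem one_nb {η : Dual k V} (hη : ∃ x ∈ W, η x ≠ 0) : ∃ z ζ, P z ζ ∧ z ∈ W ∧ η z ≠ 0 := by
  have hne : W ≠ ⊥ := by
    rintro rfl
    obtain ⟨x, hx, h2⟩ := hη
    rw [(Submodule.mem_bot k).1 hx, map_zero] at h2; exact h2 rfl
  obtain ⟨u, φ, h1, hu⟩ := hW.ex hne
  rcases nb hW h1 hu hη with h2 | ⟨s, σ, h2, h3, -, h4⟩
  · exact ⟨u, φ, h1, hu, h2⟩
  · exact ⟨s, σ, h2, h3, h4⟩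

theorem two_nb {η₁ η₂ : Dual k V} (hη₁ : ∃ x ∈ W, η₁ x ≠ 0) (hη₂ : ∃ x ∈ W, η₂ x ≠ 0) :
    ∃ z ζ, P z ζ ∧ z ∈ W ∧ η₁ z ≠ 0 ∧ η₂ z ≠ 0 := by
  obtain ⟨z, ζ, h1, hz, h2⟩ := one_nb hW hη₁
  by_cases h3 : η₂ z = 0
  · obtain ⟨s, σ, h4, hs, h5, h6⟩ := (nb hW h1 hz hη₂).resolve_left (fun h4 => h4 h3)
    have : η₁ z + η₁ s ≠ 0 ∨ η₁ z - η₁ s ≠ 0 := by
      by_contra hc
      push Not at hc
      apply mul_ne_zero h.two h2
      linear_combination hc.1 + hc.2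
    rcases this with h7 | h7
    · obtain ⟨χ, h8⟩ := h.line h4 h1 h5 1
      exact ⟨_, χ, h8, W.add_mem hz (W.smul_mem _ hs), by simpa using h7, by simpa [h3] using h6⟩
    · obtain ⟨χ, h8⟩ := h.line h4 h1 h5 (-1)
      exact ⟨_, χ, h8, W.add_mem hz (W.smul_mem _ hs), by simpa [sub_eq_add_neg] using h7,
        by simpa [h3] using h6⟩
  · exact ⟨z, ζ, h1, hz, h2, h3⟩

omit hW in
theorem two_axes {z ζ₁ ζ₂} (h1 : P z ζ₁) (h2 : P z ζ₂) {a : V} (h3 : ζ₁ a ≠ 0) (h4 : ζ₂ a = 0) (y : V) :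
    ∃ ζ, P z ζ ∧ ζ y = 0 := by
  by_cases h5 : ζ₂ y = 0
  · exact ⟨ζ₂, h2, h5⟩
  by_cases h6 : ζ₁ y = 0
  · exact ⟨ζ₁, h1, h6⟩
  refine ⟨ζ₁ - (ζ₁ y / ζ₂ y) • ζ₂, h.subR h1 (h.smulR h2 (div_ne_zero h6 h5)) ?_, by simp [h5]⟩
  intro e
  have := congrArg (fun f : Dual k V => f a) e
  simp [h4] at this
  exact h3 this

omit hW in
theorem two_step {u w ψ φ₀} (h0 : P u φ₀) (hu : ∀ y, ∃ ζ, P u ζ ∧ ζ y = 0) (h1 : P w ψ) (h2 : ψ u ≠ 0) :
    ∀ y, ∃ ζ, P w ζ ∧ ζ y = 0 := by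
  obtain ⟨φ, h3, h4⟩ := hu w
  exact h.two_axes h1 (h.f1 h1 h3 h2 h4) h2 (h.orth h3)

section SL
variable (hb : ∃ u φ w ψ, P u φ ∧ P w ψ ∧ u ∈ W ∧ φ w ≠ 0 ∧ ψ u = 0)
include hb

theorem all_two {z ζ} (h1 : P z ζ) (hz : z ∈ W) : ∀ y, ∃ ζ, P z ζ ∧ ζ y = 0 := by
  obtain ⟨u, φ, w, ψ, h2, h3, hu, h4, h5⟩ := hb
  have h6 := h.two_axes h2 (h.f1 h2 h3 h4 h5) h4 (h.orth h3)
  rcases nb hW h2 hu ((hW.mem_iff h1).1 hz) with h7 | ⟨s, σ, h7, -, h8, h9⟩
  · exact h.two_step h2 h6 h1 h7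
  · exact h.two_step h7 (h.two_step h2 h6 h7 h8) h1 h9

theorem star {x φ y η} (h1 : P x φ) (hx : x ∈ W) (h2 : P y η) (hy : y ∈ W) (h3 : φ y = 0) : P y φ := by
  obtain ⟨z, ζ₀, h4, hz, h5, h6⟩ := h.two_nb hW ((hW.mem_iff h1).1 hx) ((hW.mem_iff h2).1 hy)
  obtain ⟨ζ, h7, h8⟩ := h.all_two hW hb h4 hz y
  have h9 : P y ζ := h.f1 h2 h7 h6 h8
  by_cases h10 : ζ x = 0
  · have h11 : P x ζ := h.f1 h1 h7 h5 h10
    obtain ⟨b, β, h12, -, h13, h14⟩ := h.opp hW h11 hx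
    by_cases h15 : β y = 0
    · exact h.f1 (h.f1 h9 h12 h14 h15) h1 h13 h3
    · by_cases h16 : y - (β y / β x) • x = 0
      · rw [sub_eq_zero.1 h16]
        exact h.smulL h1 (div_ne_zero h15 h13)
      · have h17 := h.subL h9 (h.smulL h11 (div_ne_zero h15 h13)) h16
        have h18 := h.f1 h17 h12 h14 (by simp [h13])
        have h19 := h.f1 h18 h1 h13 (by simp [h3, h.orth h1])
        have := h.addL h19 (h.smulL h1 (div_ne_zero h15 h13)) (by simpa using h.ne_left h2)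
        simpa using this
  · exact h.f1 h9 h1 h10 h3

theorem sl_centres {x : V} (hx : x ∈ W) (hx0 : x ≠ 0) : ∃ φ, P x φ := by
  obtain ⟨u, φ, h1, hu⟩ := hW.ex (fun e => hx0 (by rw [e] at hx; exact hx))
  have key : ∀ x ∈ TW P u, x ∈ W ∧ (x = 0 ∨ ∃ φ, P x φ) := by
    intro x hx
    refine Submodule.span_induction (p := fun x _ => x ∈ W ∧ (x = 0 ∨ ∃ φ, P x φ)) ?_ ?_ ?_ ?_ hx
    · rintro w (rfl | ⟨ψ, h2, h3⟩)
      · exact ⟨hu, Or.inr ⟨φ, h1⟩⟩
      · exact ⟨(hW.mem_iff h2).2 ⟨u, hu, h3⟩, Or.inr ⟨ψ, h2⟩⟩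
    · exact ⟨W.zero_mem, Or.inl rfl⟩
    · rintro a b - - ⟨ha, ha'⟩ ⟨hb', hb''⟩
      refine ⟨W.add_mem ha hb', ?_⟩
      rcases ha' with rfl | ⟨α, h2⟩
      · simpa using hb''
      rcases hb'' with rfl | ⟨β, h3⟩
      · exact Or.inr ⟨α, by simpa using h2⟩
      by_cases h4 : β a = 0
      · by_cases h5 : a + b = 0
        · exact Or.inl h5
        · exact Or.inr ⟨β, h.addL (h.star hW hb h3 hb' h2 ha h4) h3 h5⟩
      · right; simpa using h.line h3 h2 h4 1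
    · rintro c a - ⟨ha, ha'⟩
      refine ⟨W.smul_mem c ha, ?_⟩
      by_cases hc : c = 0
      · left; simp [hc]
      rcases ha' with rfl | ⟨α, h2⟩
      · left; simp
      · exact Or.inr ⟨α, h.smulL h2 hc⟩
  exact (key x (by rwa [hW.eq_TW h1 hu])).2.resolve_left hx0

theorem sl_axes {χ : Dual k V} (hχ : χ ∈ TPhi P W) (h0 : χ ≠ 0) : ∃ u ∈ W, P u χ := by
  have key : χ = 0 ∨ ∃ u ∈ W, P u χ := by
    refine Submodule.span_induction (p := fun χ _ => χ = 0 ∨ ∃ u ∈ W, P u χ) ?_ ?_ ?_ ?_ hχ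
    · exact fun φ hφ => Or.inr hφ
    · exact Or.inl rfl
    · rintro φ ψ - - (rfl | ⟨u, hu, h1⟩) h2
      · simpa using h2
      rcases h2 with rfl | ⟨w, hw, h2⟩
      · exact Or.inr ⟨u, hu, by simpa using h1⟩
      by_cases h3 : φ w = 0
      · by_cases h4 : φ + ψ = 0
        · exact Or.inl h4
        · exact Or.inr ⟨w, hw, h.addR (h.star hW hb h1 hu h2 hw h3) h2 h4⟩
      · obtain ⟨d, h4⟩ := h.lineR h2 h1 h3 1
        exact Or.inr ⟨_, W.add_mem hu (W.smul_mem d hw), by simpa using h4⟩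
    · rintro c φ - (rfl | ⟨u, hu, h1⟩)
      · left; simp
      by_cases hc : c = 0
      · left; simp [hc]
      · exact Or.inr ⟨u, hu, h.smulR h1 hc⟩
  exact key.resolve_left h0

theorem sl_all {x : V} (hx : x ∈ W) (hx0 : x ≠ 0) {χ : Dual k V} (hχ : χ ∈ TPhi P W) (h0 : χ ≠ 0)
    (h1 : χ x = 0) : P x χ := by
  obtain ⟨φ, h2⟩ := h.sl_centres hW hb hx hx0
  obtain ⟨u, hu, h3⟩ := h.sl_axes hW hb hχ h0
  exact h.star hW hb h3 hu h2 hx h1

end SL

end TS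

/-- normalised pairs with respect to a base pair -/
def TQ1 (P : V → Dual k V → Prop) (W : Submodule k V) (x : V) (χ : Dual k V) : Set (V × Dual k V) :=
  {q | q = (x, χ) ∨ (P q.1 q.2 ∧ q.1 ∈ W ∧ χ q.1 ≠ 0 ∧ q.2 x = -χ q.1)}

namespace TS
variable {P : V → Dual k V → Prop} (h : TS P) {W : Submodule k V} (hW : TComp P W)
  (hb : ∀ u φ w ψ, P u φ → P w ψ → u ∈ W → φ w ≠ 0 → ψ u ≠ 0) {x : V} {χ : Dual k V} (hx : P x χ)
  (hxW : x ∈ W)
include h hW hb hx hxW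

omit hW in
theorem q1_anti {q r : V × Dual k V} (hq : q ∈ TQ1 P W x χ) (hr : r ∈ TQ1 P W x χ) :
    q.2 r.1 = -r.2 q.1 := by
  rcases hq with rfl | ⟨h1, h2, h3, h4⟩ <;> rcases hr with rfl | ⟨h5, h6, h7, h8⟩
  · simp [h.orth hx]
  · simp [h8]
  · simp [h4]
  · obtain ⟨u, φ⟩ := q
    obtain ⟨w, ψ⟩ := r
    simp only at *
    by_cases h9 : ψ u = 0
    · rw [h9, neg_zero]
      by_contra h10
      exact hb u φ w ψ h1 h5 h2 h10 h9
    · have h10 := h.conj' h1 hx (-χ w / (ψ u * χ u))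
      have h11 : ψ (x + (-χ w / (ψ u * χ u) * φ x) • u) = 0 := by
        simp only [map_add, map_smul, smul_eq_mul, h8, h4]; field_simp; ring
      have h12 : (χ - (-χ w / (ψ u * χ u) * χ u) • φ) w = 0 := by
        by_contra h13
        exact hb _ _ w ψ h10 h5 (W.add_mem hxW (W.smul_mem _ h2)) h13 h11
      simp only [LinearMap.sub_apply, LinearMap.smul_apply, smul_eq_mul] at h12
      field_simp at h12
      have h13 : χ w * (φ w + ψ u) = 0 := by linear_combination h12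
      linear_combination (mul_eq_zero.1 h13).resolve_left h7

omit hW in
theorem q_anti {q r : V × Dual k V} (hq : q ∈ Submodule.span k (TQ1 P W x χ))
    (hr : r ∈ Submodule.span k (TQ1 P W x χ)) : q.2 r.1 = -r.2 q.1 := by
  induction hq using Submodule.span_induction with
  | mem q hq =>
    induction hr using Submodule.span_induction with
    | mem r hr => exact h.q1_anti hb hx hxW hq hr
    | zero => simp
    | add a b _ _ h1 h2 => simp [h1, h2]; ring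
    | smul c a _ h1 => simp [h1]
  | zero => simp
  | add a b _ _ h1 h2 => simp [h1, h2]; ring
  | smul c a _ h1 => simp [h1]

omit h hW hb hx in
theorem q_fst {q : V × Dual k V} (hq : q ∈ Submodule.span k (TQ1 P W x χ)) : q.1 ∈ W := by
  induction hq using Submodule.span_induction with
  | mem q hq =>
    rcases hq with rfl | ⟨-, h2, -⟩
    · exact hxW
    · exact h2
  | zero => exact W.zero_mem
  | add a b _ _ h1 h2 => exact W.add_mem h1 h2
  | smul c a _ h1 => exact W.smul_mem c h1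

omit hW in
theorem q_norm1 {b β} (h1 : P b β) (hbW : b ∈ W) (h2 : χ b ≠ 0) :
    ∃ c : k, c ≠ 0 ∧ (b, c • β) ∈ TQ1 P W x χ := by
  have h3 : β x ≠ 0 := hb _ _ _ _ hx h1 hxW h2
  have h4 : -χ b / β x ≠ 0 := div_ne_zero (neg_ne_zero.2 h2) h3
  exact ⟨_, h4, Or.inr ⟨h.smulR h1 h4, hbW, h2, by simp [h3]⟩⟩

theorem q_norm {b β} (h1 : P b β) (hbW : b ∈ W) :
    ∃ c : k, c ≠ 0 ∧ (b, c • β) ∈ Submodule.span k (TQ1 P W x χ) := by
  by_cases h2 : χ b = 0
  · have h3 : β x = 0 := by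
      by_contra h4
      exact hb _ _ _ _ h1 hx hbW h4 h2
    obtain ⟨z, ζ₀, h4, hz, h5, h6⟩ := h.two_nb hW ((hW.mem_iff hx).1 hxW) ((hW.mem_iff h1).1 hbW)
    obtain ⟨c, hc, h7⟩ := h.q_norm1 hb hx hxW h4 hz h5
    have h8 : P z (c • ζ₀) := h.smulR h4 hc
    set ζ := c • ζ₀ with hζ
    have h9 : ζ x = -χ z := by
      rcases h7 with h7 | h7
      · have e : z = x := congrArg Prod.fst h7
        exact absurd (e ▸ h.orth hx) h5
      · exact h7.2.2.2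
    have h10 : ζ b ≠ 0 := hb _ _ _ _ h1 h8 hbW h6
    have h11 := h.conj' h1 h8 (β z)⁻¹
    rw [inv_mul_cancel₀ h6, one_smul] at h11
    have h12 : (z + b, ζ - ((β z)⁻¹ * ζ b) • β) ∈ TQ1 P W x χ :=
      Or.inr ⟨h11, W.add_mem hz hbW, by simpa [h2] using h5, by simp [h2, h3, h9]⟩
    refine ⟨-((β z)⁻¹ * ζ b), neg_ne_zero.2 (mul_ne_zero (inv_ne_zero h6) h10), ?_⟩
    have h13 := Submodule.sub_mem _ (Submodule.subset_span (R := k) h12) (Submodule.subset_span h7)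
    convert h13 using 1
    refine Prod.ext (by simp) ?_
    simp only [Prod.snd_sub]
    module
  · obtain ⟨c, hc, h3⟩ := h.q_norm1 hb hx hxW h1 hbW h2
    exact ⟨c, hc, Submodule.subset_span h3⟩

omit hW in
theorem q_add_opp {u φ w ψ} (hq : (u, φ) ∈ Submodule.span k (TQ1 P W x χ))
    (hr : (w, ψ) ∈ Submodule.span k (TQ1 P W x χ)) (h1 : P u φ) (h2 : P w ψ) (h3 : φ w ≠ 0) (c : k) :
    P (w + c • u) (ψ + c • φ) := by
  have h4 : φ w = -ψ u := h.q_anti hb hx hxW hq hr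
  have h5 := h.conj' h1 h2 (c / φ w)
  have e : ψ - (c / φ w * ψ u) • φ = ψ + c • φ := by
    have : c / φ w * ψ u = -c := by
      have : ψ u = -φ w := by rw [h4, neg_neg]
      rw [this]; field_simp
    rw [this]; module
  rwa [div_mul_cancel₀ _ h3, e] at h5

theorem q_add {u φ w ψ} (hq : (u, φ) ∈ Submodule.span k (TQ1 P W x χ))
    (hr : (w, ψ) ∈ Submodule.span k (TQ1 P W x χ)) (h1 : P u φ) (h2 : P w ψ) :
    (u + w = 0 ∧ φ + ψ = 0) ∨ P (u + w) (φ + ψ) := by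
  by_cases h3 : ψ u = 0
  swap
  · right; simpa using h.q_add_opp hb hx hxW hr hq h2 h1 h3 1
  have h4 : φ w = 0 := by
    have : φ w = -ψ u := h.q_anti hb hx hxW hq hr
    rw [this, h3, neg_zero]
  have huW : u ∈ W := q_fst hxW hq
  have hwW : w ∈ W := q_fst hxW hr
  obtain ⟨z, ζ₀, h5, hz, h6, h7⟩ := h.two_nb hW ((hW.mem_iff h1).1 huW) ((hW.mem_iff h2).1 hwW)
  obtain ⟨c, hc, hzq⟩ := h.q_norm hW hb hx hxW h5 hz
  have h8 : P z (c • ζ₀) := h.smulR h5 hc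
  set ζ := c • ζ₀ with hζ
  have hs : (u + w, φ + ψ) ∈ Submodule.span k (TQ1 P W x χ) := Submodule.add_mem _ hq hr
  have hpl : ∀ a : k, P (z + a • (u + w)) (ζ + a • (φ + ψ)) := by
    intro a
    have h9 := h.q_add_opp hb hx hxW hq hzq h1 h8 h6 a
    have h10 : (z + a • u, ζ + a • φ) ∈ Submodule.span k (TQ1 P W x χ) :=
      Submodule.add_mem _ hzq (Submodule.smul_mem _ a hq)
    have h11 := h.q_add_opp hb hx hxW hr h10 h2 h9 (by simpa [h3] using h7) a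
    have e1 : z + a • u + a • w = z + a • (u + w) := by module
    have e2 : ζ + a • φ + a • ψ = ζ + a • (φ + ψ) := by module
    rwa [e1, e2] at h11
  have hp1 : P (z + (u + w)) (ζ + (φ + ψ)) := by simpa only [one_smul] using hpl 1
  by_cases h9 : ζ (u + w) = 0
  swap
  · right
    have h10 := h.q_add_opp hb hx hxW hzq (Submodule.add_mem _ hzq hs) h8 hp1
      (by rw [map_add, h.orth h8, zero_add]; exact h9) (-1)
    have e1 : z + (u + w) + (-1 : k) • z = u + w := by module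
    have e2 : ζ + (φ + ψ) + (-1 : k) • ζ = φ + ψ := by module
    rwa [e1, e2] at h10
  have h10 : (φ + ψ) z = 0 := by
    have : (φ + ψ) z = -ζ (u + w) := h.q_anti hb hx hxW hs hzq
    rw [this, h9, neg_zero]
  by_cases hr0 : u + w = 0 <;> by_cases hρ0 : φ + ψ = 0
  · exact Or.inl ⟨hr0, hρ0⟩
  · exfalso
    rw [hr0, add_zero] at hp1
    have h11 := h.subR hp1 h8 (by simpa using hρ0)
    rw [add_sub_cancel_left] at h11
    obtain ⟨b, β, h12, hbW, -, h13⟩ := h.opp hW h11 hz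
    obtain ⟨d, -, h14⟩ := h.q_norm hW hb hx hxW h12 hbW
    apply h13
    have : (φ + ψ) b = -(d • β) (u + w) := h.q_anti hb hx hxW hs h14
    rw [this, hr0, map_zero, neg_zero]
  · exfalso
    rw [hρ0, add_zero] at hp1
    have h11 := h.subL hp1 h8 (by simpa using hr0)
    rw [add_sub_cancel_left] at h11
    obtain ⟨b, β, h12, hbW, h13, -⟩ := h.opp hW h11 (W.add_mem huW hwW)
    obtain ⟨d, hd, h14⟩ := h.q_norm hW hb hx hxW h12 hbW
    have : (d • β) (u + w) = -(φ + ψ) b := h.q_anti hb hx hxW h14 hs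
    rw [hρ0] at this
    simp only [LinearMap.smul_apply, smul_eq_mul, LinearMap.zero_apply, neg_zero, mul_eq_zero] at this
    exact this.elim hd h13
  · right
    have hm := hpl (-1)
    have e1 : z + (-1 : k) • (u + w) = z - (u + w) := by module
    have e2 : ζ + (-1 : k) • (φ + ψ) = ζ - (φ + ψ) := by module
    rw [e1, e2] at hm
    exact h.quad hp1 hm h8 h9 h10 (by simp [h3, h4, h.orth h1, h.orth h2]) hr0 hρ0

theorem q_good {q : V × Dual k V} (hq : q ∈ Submodule.span k (TQ1 P W x χ)) : q = 0 ∨ P q.1 q.2 := by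
  induction hq using Submodule.span_induction with
  | mem q hq =>
    rcases hq with rfl | ⟨h1, -⟩
    · exact Or.inr hx
    · exact Or.inr h1
  | zero => exact Or.inl rfl
  | add a b ha hb' h1 h2 =>
    rcases h1 with rfl | h1
    · simpa using h2
    rcases h2 with rfl | h2
    · right; simpa using h1
    rcases h.q_add hW hb hx hxW (u := a.1) (φ := a.2) (w := b.1) (ψ := b.2) ha hb' h1 h2 with h3 | h3
    · exact Or.inl (Prod.ext h3.1 h3.2)
    · exact Or.inr h3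
  | smul c a _ h1 =>
    by_cases hc : c = 0
    · left; simp [hc]
    rcases h1 with rfl | h1
    · left; simp
    · exact Or.inr (h.smul h1 hc hc)

theorem q_surj {u : V} (hu : u ∈ W) : ∃ φ, (u, φ) ∈ Submodule.span k (TQ1 P W x χ) := by
  rw [← hW.eq_TW hx hxW] at hu
  induction hu using Submodule.span_induction with
  | mem w hw =>
    rcases hw with rfl | ⟨ψ, h1, h2⟩
    · exact ⟨χ, Submodule.subset_span (Or.inl rfl)⟩
    · obtain ⟨c, -, h3⟩ := h.q_norm hW hb hx hxW h1 ((hW.mem_iff h1).2 ⟨x, hxW, h2⟩)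
      exact ⟨_, h3⟩
  | zero => exact ⟨0, Submodule.zero_mem _⟩
  | add a b _ _ h1 h2 =>
    obtain ⟨α, h1⟩ := h1
    obtain ⟨β, h2⟩ := h2
    exact ⟨α + β, Submodule.add_mem _ h1 h2⟩
  | smul c a _ h1 =>
    obtain ⟨α, h1⟩ := h1
    exact ⟨c • α, Submodule.smul_mem _ c h1⟩

theorem sp_struct : ∃ β : W →ₗ[k] Dual k V, (∀ u w : W, β u w = -β w u) ∧ (∀ u : W, u ≠ 0 → P u (β u)) ∧
    ∀ (u : W) φ, P u φ → ∃ c : k, φ = c • β u := by
  set Q := Submodule.span k (TQ1 P W x χ) with hQ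
  let f : Q →ₗ[k] W := LinearMap.codRestrict W ((LinearMap.fst k V (Dual k V)).comp Q.subtype)
    (fun q => q_fst hxW q.2)
  have hinj : ∀ q ∈ Q, q.1 = 0 → q = 0 := fun q hq h0 =>
    (h.q_good hW hb hx hxW hq).resolve_right fun h1 => h.ne_left h1 h0
  have hf : Function.Bijective f := by
    constructor
    · rw [injective_iff_map_eq_zero]
      intro q hq
      exact Subtype.ext (hinj q q.2 (congrArg Subtype.val hq))
    · intro u
      obtain ⟨φ, h1⟩ := h.q_surj hW hb hx hxW u.2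
      exact ⟨⟨_, h1⟩, rfl⟩
  let e := LinearEquiv.ofBijective f hf
  let β : W →ₗ[k] Dual k V := (LinearMap.snd k V (Dual k V)).comp (Q.subtype.comp e.symm.toLinearMap)
  have hβ : ∀ u : W, ((u : V), β u) ∈ Q := by
    intro u
    have h1 : f (e.symm u) = u := e.apply_symm_apply u
    have h2 : ((e.symm u : Q) : V × Dual k V) = ((u : V), β u) := Prod.ext (congrArg Subtype.val h1) rfl
    rw [← h2]; exact (e.symm u).2
  refine ⟨β, fun u w => h.q_anti hb hx hxW (hβ u) (hβ w), fun u hu => ?_, fun u φ h1 => ?_⟩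
  · refine (h.q_good hW hb hx hxW (hβ u)).resolve_left fun h0 => hu ?_
    exact Subtype.ext (congrArg Prod.fst h0)
  · obtain ⟨c, hc, h2⟩ := h.q_norm hW hb hx hxW h1 u.2
    have h3 := hinj _ (Submodule.sub_mem _ h2 (hβ u)) (by simp)
    have h4 : c • φ - β u = 0 := congrArg Prod.snd h3
    refine ⟨c⁻¹, ?_⟩
    rw [← sub_eq_zero.1 h4, smul_smul, inv_mul_cancel₀ hc, one_smul]

end TS

/-- the structure of a component -/
theorem TS.dichotomy {P : V → Dual k V → Prop} (h : TS P) {W : Submodule k V} (hW : TComp P W) :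
    (∀ x ∈ W, x ≠ 0 → ∀ χ ∈ TPhi P W, χ ≠ 0 → χ x = 0 → P x χ) ∨
    ∃ β : W →ₗ[k] Dual k V, (∀ u w : W, β u w = -β w u) ∧ (∀ u : W, u ≠ 0 → P u (β u)) ∧
      ∀ (u : W) φ, P u φ → ∃ c : k, φ = c • β u := by
  by_cases h0 : W = ⊥
  · left
    intro x hx hx0
    rw [h0] at hx
    exact absurd hx hx0
  by_cases hb : ∃ u φ w ψ, P u φ ∧ P w ψ ∧ u ∈ W ∧ φ w ≠ 0 ∧ ψ u = 0
  · exact Or.inl fun x hx hx0 χ hχ h1 h2 => h.sl_all hW hb hx hx0 hχ h1 h2
  · right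
    obtain ⟨x, χ, hx, hxW⟩ := hW.ex h0
    push Not at hb
    exact h.sp_struct hW hb hx hxW

end CfsgH9
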