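import Cfsg.Agent.H9.McL
import Cfsg.Agent.H9.ExSp

set_option autoImplicit false

namespace CfsgH9
open Module

variable {k V : Type*} [Field k] [AddCommGroup V] [Module k V]

theorem sl_module_induction [FiniteDimensional k V] (R : Subgroup (V ≃ₗ[k] V))
    (hR : ∀ (u : V) (φ : Dual k V) (g : V ≃ₗ[k] V), φ u = 0 → (∀ x, g x = x + φ x • u) → g ∈ R)
    (f : V ≃ₗ[k] V) (hf : LinearMap.det (f : V →ₗ[k] V) = 1) : f ∈ R := by
  classical
  let b := Module.finBasis k V
  have hf' : LinearEquiv.det f = 1 := by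
    rw [← Units.val_inj, LinearEquiv.coe_det]; exact hf
  rcases subsingleton_or_nontrivial (Fin (finrank k V)) with hs | hs
  · have : finrank k V ≤ 1 := by
      have := Fintype.card_le_one_iff_subsingleton.2 hs
      simpa using this
    have h1 : f = 1 := by
      have h2 : LinearMap.toMatrix b b (f : V →ₗ[k] V) = 1 := by
        ext i j
        have hij : i = j := Subsingleton.elim _ _
        subst hij
        have := LinearMap.det_toMatrix b (f : V →ₗ[k] V)
        rw [hf, Matrix.det_eq_elem_of_subsingleton _ i] at this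
        simp [this]
      have h3 : (f : V →ₗ[k] V) = LinearMap.id := by
        apply (LinearMap.toMatrix b b).injective
        rw [h2, LinearMap.toMatrix_id]
      ext x
      exact congrArg (fun g : V →ₗ[k] V => g x) h3
    rw [h1]; exact R.one_mem
  · let Θ := SpecialLinearGroup.toLinearEquiv.comp (Matrix.SpecialLinearGroup.toLin_equiv b).toMonoidHom
    have key : ∀ M, Θ M ∈ R := by
      intro M
      refine CfsgH7.SL_induction (fun M => Θ M ∈ R) (fun i j hij a => ?_) (fun A B hA hB => ?_) M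
      · refine hR (b i) (a • b.coord j) _ (by simp [hij]) fun x => ?_
        change Matrix.toLin b b (Matrix.SpecialLinearGroup.transvection hij a : Matrix _ _ k) x = _
        rw [Matrix.SpecialLinearGroup.transvection_coe, map_add, Matrix.toLin_one]
        simp [Matrix.toLin_apply, Matrix.single_mulVec, Pi.single_apply, Function.update_apply]
      · simp only [map_mul]; exact R.mul_mem hA hB
    have := key ((Matrix.SpecialLinearGroup.toLin_equiv b).symm ⟨f, hf'⟩)
    simp only [Θ, MonoidHom.comp_apply, MulEquiv.coe_toMonoidHom, MulEquiv.apply_symm_apply] at this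
    exact this

/-- (centre, axis) pairs of the transvections in `H` -/
def TP (H : Subgroup (V ≃ₗ[k] V)) (u : V) (φ : Dual k V) : Prop :=
  u ≠ 0 ∧ φ ≠ 0 ∧ φ u = 0 ∧ ∃ g ∈ H, ∀ x, g x = x + φ x • u

theorem tv_inv_apply {g : V ≃ₗ[k] V} {u : V} {φ : Dual k V} (h0 : φ u = 0) (hg : ∀ x, g x = x + φ x • u)
    (x : V) : g⁻¹ x = x - φ x • u := by
  apply g.injective
  change g (g.symm x) = _
  rw [g.apply_symm_apply, hg]; simp [h0]

theorem ts_TP {H : Subgroup (V ≃ₗ[k] V)} (h2 : (2 : k) ≠ 0)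
    (hsm : ∀ u φ (c : k), TP H u φ → ∃ g ∈ H, ∀ x, g x = x + (c * φ x) • u)
    (hred : ∀ (X : Submodule k V) u φ, TInv (TP H) X → TP H u φ → u ∈ X → ∃ x ∈ X, φ x ≠ 0) :
    TS (TP H) where
  two := h2
  ne_left h := h.1
  ne_right h := h.2.1
  orth h := h.2.2.1
  smul := by
    intro u φ c d h hc hd
    obtain ⟨g, hg, e⟩ := hsm u φ (c * d) h
    refine ⟨smul_ne_zero hc h.1, smul_ne_zero hd h.2.1, by simp [h.2.2.1], g, hg, fun x => ?_⟩
    rw [e]; simp only [LinearMap.smul_apply, smul_eq_mul]; module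
  addL := by
    rintro u w φ ⟨-, h1, h3, g, hg, e⟩ ⟨-, -, h4, g', hg', e'⟩ h5
    refine ⟨h5, h1, by simp [h3, h4], g * g', H.mul_mem hg hg', fun x => ?_⟩
    rw [LinearEquiv.mul_apply, e', e]; simp only [map_add, map_smul, h4, smul_eq_mul]; module
  addR := by
    rintro u φ ψ ⟨h1, -, h3, g, hg, e⟩ ⟨-, -, h4, g', hg', e'⟩ h5
    refine ⟨h1, h5, by simp [h3, h4], g * g', H.mul_mem hg hg', fun x => ?_⟩
    rw [LinearEquiv.mul_apply, e', e]
    simp only [map_add, map_smul, h3, smul_eq_mul, LinearMap.add_apply]; module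
  conj := by
    rintro u φ w ψ ⟨-, -, h3, g, hg, e⟩ ⟨h1, h5, h4, g', hg', e'⟩
    have hi := tv_inv_apply h3 e
    refine ⟨?_, ?_, ?_, g * g' * g⁻¹, H.mul_mem (H.mul_mem hg hg') (H.inv_mem hg), fun x => ?_⟩
    · rw [← e]; exact fun h => h1 (g.injective (by rw [h, map_zero]))
    · intro h
      apply h5
      ext x
      have := congrArg (fun f : Dual k V => f (g x)) h
      simp only [e, LinearMap.sub_apply, map_add, map_smul, LinearMap.smul_apply, smul_eq_mul, h3,
        LinearMap.zero_apply] at this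
      simp only [LinearMap.zero_apply]
      linear_combination this
    · simp only [LinearMap.sub_apply, map_add, map_smul, LinearMap.smul_apply, smul_eq_mul, h3, h4]; ring
    · rw [LinearEquiv.mul_apply, LinearEquiv.mul_apply, hi, e', e]
      simp only [map_add, map_sub, map_smul, h3, smul_eq_mul, LinearMap.sub_apply, LinearMap.smul_apply]
      module
  quad := by
    rintro x χ r ρ ⟨-, -, -, g₁, hg₁, e₁⟩ ⟨-, -, -, g₂, hg₂, e₂⟩ ⟨-, -, h0, g, hg, e⟩ h1 h3 h4 hr hρ
    have hi := tv_inv_apply h0 e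
    have : TP H r ((2 : k) • ρ) := by
      refine ⟨hr, smul_ne_zero h2 hρ, by simp [h4], g₁ * g₂ * g⁻¹ * g⁻¹,
        H.mul_mem (H.mul_mem (H.mul_mem hg₁ hg₂) (H.inv_mem hg)) (H.inv_mem hg), fun y => ?_⟩
      rw [LinearEquiv.mul_apply, LinearEquiv.mul_apply, LinearEquiv.mul_apply, hi, hi, e₂, e₁]
      simp only [map_add, map_sub, map_smul, h0, h1, h3, h4, smul_eq_mul, LinearMap.sub_apply,
        LinearMap.smul_apply, LinearMap.add_apply]
      module
    obtain ⟨g', hg', e'⟩ := hsm _ _ (2 : k)⁻¹ this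
    refine ⟨hr, hρ, h4, g', hg', fun y => ?_⟩
    rw [e']; simp [h2]
  red := fun h1 h2 h3 => hred _ _ _ h1 h2 h3

/-- stabiliser of a subspace -/
def StabS (X : Submodule k V) : Subgroup (V ≃ₗ[k] V) where
  carrier := {g | ∀ x, x ∈ X ↔ g x ∈ X}
  one_mem' := fun _ => Iff.rfl
  mul_mem' := fun {a b} ha hb x => (hb x).trans (ha (b x))
  inv_mem' := fun {a} ha x => by
    rw [ha (a⁻¹ x)]
    change _ ↔ a (a.symm x) ∈ X
    rw [a.apply_symm_apply]

/-- maps moving into `W` and fixing `C` pointwise -/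
def FixS (W C : Submodule k V) : Subgroup (V ≃ₗ[k] V) where
  carrier := {g | (∀ x, g x - x ∈ W) ∧ ∀ x ∈ C, g x = x}
  one_mem' := ⟨fun x => by simp, fun _ _ => rfl⟩
  mul_mem' := by
    rintro a b ⟨h1, h2⟩ ⟨h3, h4⟩
    refine ⟨fun x => ?_, fun x hx => ?_⟩
    · have := W.add_mem (h1 (b x)) (h3 x)
      simpa using this
    · rw [LinearEquiv.mul_apply, h4 x hx, h2 x hx]
  inv_mem' := by
    rintro a ⟨h1, h2⟩
    refine ⟨fun x => ?_, fun x hx => ?_⟩
    · have := W.neg_mem (h1 (a.symm x))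
      rw [a.apply_symm_apply, neg_sub] at this
      exact this
    · apply a.injective
      change a (a.symm x) = _
      rw [a.apply_symm_apply, h2 x hx]

theorem FixS_le_stab_left (W C : Submodule k V) : FixS W C ≤ StabS W := fun g hg x =>
  ⟨fun hx => by simpa using W.add_mem (hg.1 x) hx, fun hx => by simpa using W.sub_mem hx (hg.1 x)⟩

theorem FixS_le_stab_right {W C X : Submodule k V} (hX : X ≤ C) : FixS W C ≤ StabS X := by
  intro g hg x
  refine ⟨fun hx => by rwa [hg.2 x (hX hx)], fun hx => ?_⟩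
  have : g (g x) = g x := hg.2 _ (hX hx)
  rwa [g.injective this] at hx

theorem map_eq_of_stab {X : Submodule k V} {g : V ≃ₗ[k] V} (hg : g ∈ StabS X) :
    X.map (g : V →ₗ[k] V) = X := by
  ext y
  constructor
  · rintro ⟨x, hx, rfl⟩; exact (hg x).1 hx
  · intro hy
    exact ⟨g.symm y, (hg _).2 (by rwa [g.apply_symm_apply]), g.apply_symm_apply y⟩

/-- restriction to an invariant subspace -/
def resS (X : Submodule k V) : StabS X →* (X ≃ₗ[k] X) where
  toFun g :=
    { toFun := fun x => ⟨g.1 x, (g.2 x).1 x.2⟩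
      invFun := fun x => ⟨g.1.symm x, (g.2 _).2 (by rw [g.1.apply_symm_apply]; exact x.2)⟩
      map_add' := fun x y => Subtype.ext (by simp)
      map_smul' := fun c x => Subtype.ext (by simp)
      left_inv := fun x => Subtype.ext (by simp)
      right_inv := fun x => Subtype.ext (by simp) }
  map_one' := rfl
  map_mul' _ _ := rfl

theorem resS_apply (X : Submodule k V) (g : StabS X) (x : X) : (resS X g x : V) = g.1 x := rfl

/-- the transvection subgroup of a component -/
def TK (P : V → Dual k V → Prop) (W : Submodule k V) : Subgroup (V ≃ₗ[k] V) :=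
  Subgroup.closure {g | ∃ u φ, P u φ ∧ u ∈ W ∧ ∀ x, g x = x + φ x • u}

/-- the fixed space of a component -/
def TC (P : V → Dual k V → Prop) (W : Submodule k V) : Submodule k V := (TPhi P W).dualCoannihilator

theorem mem_TC {P : V → Dual k V → Prop} {W : Submodule k V} {x : V} :
    x ∈ TC P W ↔ ∀ u φ, P u φ → u ∈ W → φ x = 0 := by
  rw [TC, Submodule.mem_dualCoannihilator]
  refine ⟨fun h u φ h1 h2 => h φ (Submodule.subset_span ⟨u, h2, h1⟩), fun h φ hφ => ?_⟩
  induction hφ using Submodule.span_induction with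
  | mem φ hφ => obtain ⟨u, h1, h2⟩ := hφ; exact h u φ h2 h1
  | zero => rfl
  | add a b _ _ h1 h2 => simp [h1, h2]
  | smul c a _ h1 => simp [h1]

theorem TK_le_FixS (P : V → Dual k V → Prop) (W : Submodule k V) : TK P W ≤ FixS W (TC P W) := by
  rw [TK, Subgroup.closure_le]
  rintro g ⟨u, φ, h1, h2, e⟩
  refine ⟨fun x => ?_, fun x hx => ?_⟩
  · rw [e, add_sub_cancel_left]; exact W.smul_mem _ h2
  · rw [e, mem_TC.1 hx u φ h1 h2, zero_smul, add_zero]

theorem TK_le {H : Subgroup (V ≃ₗ[k] V)} (W : Submodule k V) : TK (TP H) W ≤ H := by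
  rw [TK, Subgroup.closure_le]
  rintro g ⟨u, φ, ⟨-, -, -, g', hg', e'⟩, -, e⟩
  have : g = g' := LinearEquiv.ext fun x => by rw [e, e']
  rw [this]; exact hg'

theorem TComp.le_TC {P : V → Dual k V → Prop} {W W' : Submodule k V} (hW : TComp P W) (hW' : TComp P W')
    (hne : W ≠ W') : W' ≤ TC P W := by
  intro x hx
  rw [mem_TC]
  intro u φ h1 h2
  by_contra h3
  exact hne ((hW.eq_TW h1 h2).symm.trans (hW'.eq_TW h1 ((hW'.mem_iff h1).2 ⟨x, hx, h3⟩)))

namespace TS
variable {P : V → Dual k V → Prop} (h : TS P) {W : Submodule k V} (hW : TComp P W)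
include h hW

theorem nondeg_left {x : V} (hx : x ∈ W) (hC : x ∈ TC P W) : x = 0 := by
  by_contra hx0
  have : ∃ φ, P x φ := by
    rcases h.dichotomy hW with h1 | ⟨β, -, h1, -⟩
    · obtain ⟨u, φ, h2, hu⟩ := hW.ex (fun e => hx0 (by rw [e] at hx; exact hx))
      exact ⟨φ, h1 x hx hx0 φ (Submodule.subset_span ⟨u, hu, h2⟩) (h.ne_right h2) (mem_TC.1 hC u φ h2 hu)⟩
    · exact ⟨_, h1 ⟨x, hx⟩ (fun e => hx0 (congrArg Subtype.val e))⟩
  obtain ⟨φ, h1⟩ := this
  obtain ⟨s, σ, h2, hs, h3, -⟩ := h.opp hW h1 hx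
  exact h3 (mem_TC.1 hC s σ h2 hs)

theorem nondeg_right {χ : Dual k V} (hχ : χ ∈ TPhi P W) (h0 : ∀ x ∈ W, χ x = 0) : χ = 0 := by
  by_contra hχ0
  have : ∃ u ∈ W, P u χ := by
    rcases h.dichotomy hW with h1 | ⟨β, -, h1, h2⟩
    · have hne : W ≠ ⊥ := by
        rintro rfl
        apply hχ0
        have : TPhi P ⊥ ≤ ⊥ := Submodule.span_le.2 (by
          rintro φ ⟨u, hu, h2⟩
          exact absurd hu (h.ne_left h2))
        exact this hχ
      obtain ⟨u, φ, h2, hu⟩ := hW.ex hne
      exact ⟨u, hu, h1 u hu (h.ne_left h2) χ hχ hχ0 (h0 u hu)⟩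
    · have : TPhi P W ≤ LinearMap.range β := Submodule.span_le.2 (by
        rintro φ ⟨u, hu, h3⟩
        obtain ⟨c, hc⟩ := h2 ⟨u, hu⟩ φ h3
        exact ⟨c • ⟨u, hu⟩, by rw [map_smul, hc]⟩)
      obtain ⟨u, rfl⟩ := this hχ
      exact ⟨u, u.2, h1 u (by rintro rfl; exact hχ0 (map_zero β))⟩
  obtain ⟨u, hu, h1⟩ := this
  obtain ⟨x, hx, h2⟩ := (hW.mem_iff h1).1 hu
  exact h2 (h0 x hx)

variable [FiniteDimensional k V]

theorem isCompl : IsCompl W (TC P W) := by
  have h1 : W ⊓ TC P W = ⊥ := by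
    rw [eq_bot_iff]
    exact fun x hx => h.nondeg_left hW hx.1 hx.2
  have h2 : finrank k (TPhi P W) ≤ finrank k W := by
    rw [← Subspace.dual_finrank_eq (K := k) (V := W)]
    refine LinearMap.finrank_le_finrank_of_injective (f := W.dualRestrict.comp (TPhi P W).subtype) ?_
    rw [injective_iff_map_eq_zero]
    intro χ hχ
    refine Subtype.ext (h.nondeg_right hW χ.2 fun x hx => ?_)
    exact congrArg (fun f : Dual k W => f ⟨x, hx⟩) hχ
  have h3 := Subspace.finrank_add_finrank_dualCoannihilator_eq (TPhi P W)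
  have h4 := Submodule.finrank_sup_add_finrank_inf_eq W (TC P W)
  rw [h1, finrank_bot] at h4
  refine ⟨disjoint_iff.2 h1, codisjoint_iff.2 (Submodule.eq_top_of_finrank_eq ?_)⟩
  have h5 := Submodule.finrank_le (W ⊔ TC P W)
  unfold TC at *
  omega

end TS

/-- the action of the component subgroup on the component -/
def rhoK (P : V → Dual k V → Prop) (W : Submodule k V) : TK P W →* (W ≃ₗ[k] W) :=
  (resS W).comp (Subgroup.inclusion ((TK_le_FixS P W).trans (FixS_le_stab_left _ _)))

theorem rhoK_apply (P : V → Dual k V → Prop) (W : Submodule k V) (g : TK P W) (x : W) :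
    (rhoK P W g x : V) = g.1 x := rfl

theorem rhoK_range_le {P : V → Dual k V → Prop} {W : Submodule k V} (R : Subgroup (W ≃ₗ[k] W))
    (hR : ∀ (u : W) φ (f : W ≃ₗ[k] W), P u φ → (∀ x : W, f x = x + φ x • u) → f ∈ R) :
    (rhoK P W).range ≤ R := by
  rintro _ ⟨⟨g, hg⟩, rfl⟩
  induction hg using Subgroup.closure_induction with
  | mem g hg =>
    obtain ⟨u, φ, h1, hu, e⟩ := hg
    exact hR ⟨u, hu⟩ φ _ h1 fun x => Subtype.ext (e x)
  | one => exact (map_one (rhoK P W)).symm ▸ R.one_mem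
  | mul a b ha hb h1 h2 => exact (map_mul (rhoK P W) ⟨a, ha⟩ ⟨b, hb⟩).symm ▸ R.mul_mem h1 h2
  | inv a ha h1 => exact (map_inv (rhoK P W) ⟨a, ha⟩).symm ▸ R.inv_mem h1

theorem mem_rhoK_range {H : Subgroup (V ≃ₗ[k] V)} {W : Submodule k V} {u : W} {φ : Dual k V}
    (h1 : TP H u φ) {f : W ≃ₗ[k] W} (hf : ∀ x : W, f x = x + φ x • u) : f ∈ (rhoK (TP H) W).range := by
  obtain ⟨g, -, e⟩ := h1.2.2.2
  refine ⟨⟨g, Subgroup.subset_closure ⟨u, φ, h1, u.2, e⟩⟩, LinearEquiv.ext fun x => Subtype.ext ?_⟩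
  rw [rhoK_apply, hf]; exact e x

theorem rhoK_range [FiniteDimensional k V] {H : Subgroup (V ≃ₗ[k] V)} (h : TS (TP H))
    {W : Submodule k V} (hW : TComp (TP H) W) :
    ((rhoK (TP H) W).range : Set (W ≃ₗ[k] W)) = {f : W ≃ₗ[k] W | LinearMap.det (f : W →ₗ[k] W) = 1} ∨
    ∃ B : LinearMap.BilinForm k W, B.IsAlt ∧ B.Nondegenerate ∧
      ((rhoK (TP H) W).range : Set (W ≃ₗ[k] W)) = {f : W ≃ₗ[k] W | ∀ x y, B (f x) (f y) = B x y} := by
  rcases h.dichotomy hW with h1 | ⟨β, h1, h2, h3⟩
  · left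
    refine Set.Subset.antisymm (fun f hf => ?_) (fun f hf => ?_)
    · have := rhoK_range_le (LinearEquiv.det : (W ≃ₗ[k] W) →* kˣ).ker (fun u φ f h2 e => ?_) hf
      · rw [MonoidHom.mem_ker, ← Units.val_inj, LinearEquiv.coe_det] at this
        exact this
      · rw [MonoidHom.mem_ker, ← Units.val_inj, LinearEquiv.coe_det]
        have : (f : W →ₗ[k] W) = LinearMap.transvection (W.dualRestrict φ) u :=
          LinearMap.ext fun x => e x
        rw [this, LinearMap.transvection.det]
        simp [h.orth h2]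
    · refine sl_module_induction _ (fun u φ g h2 e => ?_) f hf
      by_cases hu : u = 0
      · have : g = 1 := LinearEquiv.ext fun x => by rw [e, hu]; simp
        rw [this]; exact Subgroup.one_mem _
      by_cases hφ : φ = 0
      · have : g = 1 := LinearEquiv.ext fun x => by rw [e, hφ]; simp
        rw [this]; exact Subgroup.one_mem _
      have hc := h.isCompl hW
      let χ : Dual k V := φ.comp (W.projectionOnto _ hc)
      have hχ : ∀ x : W, χ x = φ x := fun x => by simp [χ]
      have hχ' : χ ∈ TPhi (TP H) W := by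
        rw [← Subspace.dualCoannihilator_dualAnnihilator_eq (W := TPhi (TP H) W),
          Submodule.mem_dualAnnihilator]
        intro x hx
        simp only [χ, LinearMap.comp_apply]
        rw [(Submodule.projectionOnto_apply_eq_zero_iff hc).2 hx, map_zero]
      have h4 := h1 u u.2 (fun e => hu (Subtype.ext e)) χ hχ'
        (fun e => hφ (LinearMap.ext fun x => by rw [← hχ, e]; rfl)) (by rw [hχ, h2])
      exact mem_rhoK_range h4 fun x => by rw [e, hχ]
  · right
    let B : LinearMap.BilinForm k W := W.dualRestrict.comp β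
    have hB : ∀ x y : W, B x y = β x y := fun _ _ => rfl
    have halt : B.IsAlt := fun x => by
      have := h1 x x
      have h4 : (2 : k) * β x x = 0 := by linear_combination this
      exact (mul_eq_zero.1 h4).resolve_left h.two
    have hnd : ∀ x : W, (∀ y, B x y = 0) → x = 0 := by
      intro x hx
      by_contra hx0
      obtain ⟨y, hy, h4⟩ := (hW.mem_iff (h2 x hx0)).1 x.2
      exact h4 (hx ⟨y, hy⟩)
    have hnd' : ∀ x : W, (∀ y, B y x = 0) → x = 0 := fun x hx => hnd x fun y => by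
      rw [hB, h1, ← hB, hx, neg_zero]
    refine ⟨B, halt, ⟨hnd, hnd'⟩, Set.Subset.antisymm (fun f hf => ?_) (fun f hf => ?_)⟩
    · let R : Subgroup (W ≃ₗ[k] W) :=
        { carrier := {f | ∀ x y, B (f x) (f y) = B x y}
          one_mem' := fun _ _ => rfl
          mul_mem' := fun {a b} ha hb x y => (ha (b x) (b y)).trans (hb x y)
          inv_mem' := fun {a} ha x y => by
            rw [← ha]
            change B (a (a.symm x)) (a (a.symm y)) = _
            rw [a.apply_symm_apply, a.apply_symm_apply] }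
      refine rhoK_range_le R (fun u φ f h4 e x y => ?_) hf
      obtain ⟨c, rfl⟩ := h3 u φ h4
      rw [e, e]
      simp only [map_add, map_smul, LinearMap.add_apply, LinearMap.smul_apply, smul_eq_mul, halt u, ← hB]
      have : B x u = -B u x := h1 x u
      rw [this]; ring
    · have := sp_induction halt hnd' (fun g => ∃ r ∈ (rhoK (TP H) W).range, (r : W →ₗ[k] W) = g)
        ⟨1, Subgroup.one_mem _, rfl⟩ (fun w c g hw ⟨r, hr, e⟩ => ?_) (f : W →ₗ[k] W) hf
      · obtain ⟨r, hr, e⟩ := this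
        rwa [← LinearEquiv.toLinearMap_injective e]
      · by_cases hc : c = 0
        · refine ⟨r, hr, ?_⟩
          rw [e]; ext x; simp [tvL_apply, hc]
        · have h4 := h.smulR (h2 w hw) (neg_ne_zero.2 hc)
          let t : W ≃ₗ[k] W := LinearEquiv.transvection (f := (-c) • B w) (v := w) (by simp [halt w])
          have ht : t ∈ (rhoK (TP H) W).range := mem_rhoK_range h4 fun x => rfl
          refine ⟨t * r, Subgroup.mul_mem _ ht hr, ?_⟩
          rw [← e]
          refine LinearMap.ext fun x => ?_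
          change r x + ((-c) • B w) (r x) • w = tvL B w c (r x)
          rw [tvL_apply]
          have : B (r x) w = -B w (r x) := h1 _ _
          simp [this]

end CfsgH9
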