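import Cfsg.Agent.H5.Ops24

set_option autoImplicit false

namespace CfsgH9
open CfsgH5

noncomputable section

/-- bundled finite groups -/
structure FGp where
  T : Type
  grp : Group T
  fin : Finite T

instance FGp.instGroupT (A : FGp) : Group A.T := A.grp
instance FGp.instFiniteT (A : FGp) : Finite A.T := A.fin

namespace FGp

/-- direct product -/
def prod (A B : FGp) : FGp := ⟨A.T × B.T, inferInstance, inferInstance⟩
/-- trivial group -/
def triv : FGp := ⟨Unit, inferInstance, inferInstance⟩
/-- direct power -/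
def pow (A : FGp) : ℕ → FGp
  | 0 => triv
  | n + 1 => prod A (pow A n)
/-- direct product of direct powers -/
def big : List (FGp × ℕ) → FGp
  | [] => triv
  | x :: l => prod (pow x.1 x.2) (big l)
/-- the number of solutions of `x ^ d = 1` -/
def sol (A : FGp) (d : ℕ) : ℕ := Nat.card {g : A.T // g ^ d = 1}

theorem sol_prod (A B : FGp) (d : ℕ) : (prod A B).sol d = A.sol d * B.sol d := by
  unfold sol
  rw [← Nat.card_prod]
  refine Nat.card_congr ⟨fun g => (⟨g.1.1, congrArg Prod.fst g.2⟩, ⟨g.1.2, congrArg Prod.snd g.2⟩),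
    fun g => ⟨(g.1.1, g.2.1), Prod.ext g.1.2 g.2.2⟩, fun _ => rfl, fun _ => rfl⟩

theorem sol_triv (d : ℕ) : triv.sol d = 1 := by
  unfold sol
  rw [Nat.card_eq_one_iff_unique]
  exact ⟨⟨fun a b => Subtype.ext rfl⟩, ⟨⟨1, rfl⟩⟩⟩

theorem sol_pow (A : FGp) (n d : ℕ) : (pow A n).sol d = A.sol d ^ n := by
  induction n with
  | zero => simp [pow, sol_triv]
  | succ n ih => rw [pow, sol_prod, ih, pow_succ']

theorem sol_big (l : List (FGp × ℕ)) (d : ℕ) : (big l).sol d = (l.map fun x => x.1.sol d ^ x.2).prod := by
  induction l with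
  | nil => simp [big, sol_triv]
  | cons x l ih => rw [big, sol_prod, sol_pow, ih, List.map_cons, List.prod_cons]

theorem solvable_prod {A B : FGp} (hA : Group.IsSolvable A.T) (hB : Group.IsSolvable B.T) :
    Group.IsSolvable (prod A B).T := inferInstanceAs (Group.IsSolvable (A.T × B.T))

theorem solvable_triv : Group.IsSolvable triv.T := inferInstanceAs (Group.IsSolvable Unit)

theorem solvable_pow {A : FGp} (hA : Group.IsSolvable A.T) (n : ℕ) : Group.IsSolvable (pow A n).T := by
  induction n with
  | zero => exact solvable_triv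
  | succ n ih => exact solvable_prod hA ih

theorem solvable_big {l : List (FGp × ℕ)} (h : ∀ x ∈ l, Group.IsSolvable x.1.T) :
    Group.IsSolvable (big l).T := by
  induction l with
  | nil => exact solvable_triv
  | cons x l ih =>
    exact solvable_prod (solvable_pow (h x (by simp)) _) (ih fun y hy => h y (by simp [hy]))

theorem not_solvable_big {A : FGp} (hA : ¬ Group.IsSolvable A.T) (n : ℕ) (l : List (FGp × ℕ)) :
    ¬ Group.IsSolvable (big ((A, n + 1) :: l)).T := by
  intro h
  apply hA
  have h' : Group.IsSolvable ((A.T × (pow A n).T) × (big l).T) := h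
  exact Group.isSolvable_of_surjective (f := (MonoidHom.fst _ _).comp
    (MonoidHom.fst (A.T × (pow A n).T) (big l).T)) fun a => ⟨((a, 1), 1), rfl⟩

theorem sol_gcd {A : FGp} {e : ℕ} (h : A.sol e = Nat.card A.T) (d : ℕ) : A.sol d = A.sol (Nat.gcd d e) := by
  have he : ∀ g : A.T, g ^ e = 1 := by
    have : {g : A.T | g ^ e = 1} = Set.univ := by
      rw [Set.eq_univ_iff_ncard]; exact h
    intro g
    have h1 : g ∈ {g : A.T | g ^ e = 1} := by rw [this]; trivial
    exact h1
  refine Nat.card_congr (Equiv.subtypeEquivRight fun g => ⟨fun h1 => pow_gcd_eq_one.2 ⟨h1, he g⟩,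
    fun h1 => (pow_gcd_eq_one.1 h1).1⟩)

theorem orderType_eq {A B : FGp} (h : ∀ d, A.sol d = B.sol d) (n : ℕ) :
    Nat.card {g : A.T // orderOf g = n} = Nat.card {g : B.T // orderOf g = n} := by
  classical
  have := Fintype.ofFinite A.T
  have := Fintype.ofFinite B.T
  simp only [Nat.card_eq_fintype_card, Fintype.card_subtype]
  induction n using Nat.strong_induction_on with
  | _ n ih =>
    rcases Nat.eq_zero_or_pos n with rfl | hn
    · rw [Finset.card_eq_zero.2, Finset.card_eq_zero.2]
      all_goals
        rw [Finset.filter_eq_empty_iff]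
        exact fun x _ => (orderOf_pos x).ne'
    · have h1 := sum_card_orderOf_eq_card_pow_eq_one (G := A.T) hn.ne'
      have h2 := sum_card_orderOf_eq_card_pow_eq_one (G := B.T) hn.ne'
      have h3 := h n
      simp only [sol, Nat.card_eq_fintype_card, Fintype.card_subtype] at h3
      rw [← h1, ← h2, ← Nat.insert_self_properDivisors hn.ne', Finset.sum_insert (by simp),
        Finset.sum_insert (by simp),
        Finset.sum_congr rfl fun m hm => ih m (Nat.mem_properDivisors.1 hm).2] at h3
      exact Nat.add_right_cancel h3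

end FGp

/-- the coding of permutations of 24 points -/
def CP : Codes ops24 (Equiv.Perm (Fin 24)) (Fin 24) := (Enc.fin 24).codes24

/-- the group of a chain -/
def chG (c : List Level) : FGp := ⟨CP.grp (gens c), inferInstance, inferInstance⟩

/-- linear powering -/
def linP (p k : ℕ) : ℕ := Nat.rec (motive := fun _ => ℕ) ops24.one (fun _ ih => force ih fun x => mul24 x p) k
/-- powering by a product of exponents -/
def powL (p : ℕ) (l : List ℕ) : ℕ :=
  List.rec (motive := fun _ => ℕ) p (fun k _ ih => force ih fun x => linP x k) l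

theorem linP_code (g : Equiv.Perm (Fin 24)) (k : ℕ) : linP (CP.code g) k = CP.code (g ^ k) := by
  induction k with
  | zero => exact CP.code_one.symm
  | succ k ih =>
    change force (linP (CP.code g) k) (fun x => mul24 x (CP.code g)) = _
    rw [force_eq, ih, pow_succ, CP.code_mul]; rfl

theorem powL_code (g : Equiv.Perm (Fin 24)) (l : List ℕ) : powL (CP.code g) l = CP.code (g ^ l.prod) := by
  induction l with
  | nil => simp [powL]
  | cons k l ih =>
    change force (powL (CP.code g) l) (fun x => linP x k) = _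
    rw [force_eq, ih, linP_code, ← pow_mul, List.prod_cons, mul_comm]

/-- validity of a chain -/
def okC (c : List Level) : Bool := band (allL (gens c) (isPerm 5 31 24)) (checkC ops24 c)

theorem okC_spec {c : List Level} (h : okC c = true) : (∀ s ∈ gens c, CP.In ⊤ s) ∧ checkC ops24 c = true := by
  simp only [okC, band_eq, Bool.and_eq_true] at h
  exact ⟨(Enc.fin 24).valid24 h.1, h.2⟩

/-- number of solutions of `x ^ d = 1` -/
def cntP (c : List Level) (l : List ℕ) : ℕ := cntC ops24 (fun p => Nat.beq (powL p l) ops24.one) c ops24.one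

theorem sol_chG {c : List Level} (h : okC c = true) (l : List ℕ) : (chG c).sol l.prod = cntP c l := by
  rw [cntP, ← CP.ncard_eq_cntC (okC_spec h).1 (okC_spec h).2]
  refine Nat.card_congr ⟨fun g => ⟨g.1.1, g.1.2, ?_⟩, fun g => ⟨⟨g.1, g.2.1⟩, ?_⟩, fun _ => rfl, fun _ => rfl⟩
  · rw [powL_code, beq_true_iff, ← CP.code_one]
    exact congrArg CP.code (congrArg Subtype.val g.2)
  · have := g.2.2
    rw [powL_code, beq_true_iff] at this
    exact Subtype.ext (CP.code_inj (this.trans CP.code_one.symm))

theorem card_chG {c : List Level} (h : okC c = true) : Nat.card (chG c).T = ordC ops24 c :=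
  CP.card_grp (okC_spec h).1 (okC_spec h).2

/-- one step of a derived series -/
def stepC (c d : List Level) : Bool :=
  allL (gens c) fun s => band (allL (gens c) fun t =>
    memC ops24 d (mul24 (mul24 (mul24 s t) (inv24 s)) (inv24 t)))
    (allL (gens d) fun u => memC ops24 d (mul24 (mul24 s u) (inv24 s)))

theorem commutator_le_of_step {c d : List Level} (hd : okC d = true) (h : stepC c d = true) :
    ⁅CP.grp (gens c), CP.grp (gens c)⁆ ≤ CP.grp (gens d) := by
  have hm := CP.mem_iff_memC (okC_spec hd).1 (okC_spec hd).2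
  simp only [stepC, allL_iff, band_eq, Bool.and_eq_true] at h
  have h1 : ∀ s t, CP.code s ∈ gens c → CP.code t ∈ gens c → s * t * s⁻¹ * t⁻¹ ∈ CP.grp (gens d) := by
    intro s t hs ht
    rw [hm, CP.code_mul, CP.code_mul, CP.code_mul, CP.code_inv, CP.code_inv]
    exact (h _ hs).1 _ ht
  have h2 : ∀ s, CP.code s ∈ gens c → ∀ u ∈ CP.grp (gens d), s * u * s⁻¹ ∈ CP.grp (gens d) := by
    intro s hs u hu
    refine CP.grp_induction (P := fun u => s * u * s⁻¹ ∈ CP.grp (gens d)) (by simp) (fun t g ht hg => ?_) hu
    have e : s * (t * g) * s⁻¹ = (s * t * s⁻¹) * (s * g * s⁻¹) := by group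
    rw [e]
    refine Subgroup.mul_mem _ ?_ hg
    rw [hm, CP.code_mul, CP.code_mul, CP.code_inv]
    exact (h _ hs).2 _ ht
  have h3 : ∀ g ∈ CP.grp (gens c), ∀ t, CP.code t ∈ gens c → g * t * g⁻¹ * t⁻¹ ∈ CP.grp (gens d) := by
    intro g hg t ht
    refine CP.grp_induction (P := fun g => g * t * g⁻¹ * t⁻¹ ∈ CP.grp (gens d)) (by simp)
      (fun s g hs hg => ?_) hg
    have e : s * g * t * (s * g)⁻¹ * t⁻¹ = s * (g * t * g⁻¹ * t⁻¹) * s⁻¹ * (s * t * s⁻¹ * t⁻¹) := by group
    rw [e]
    exact Subgroup.mul_mem _ (h2 s hs _ hg) (h1 s t hs ht)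
  refine Subgroup.commutator_le.2 fun g hg x hx => ?_
  refine CP.grp_induction (P := fun x => g * x * g⁻¹ * x⁻¹ ∈ CP.grp (gens d)) (by simp)
    (fun t x ht hx => ?_) hx
  have e : g * (t * x) * g⁻¹ * (t * x)⁻¹ = (g * t * g⁻¹ * t⁻¹) * (t * (g * x * g⁻¹ * x⁻¹) * t⁻¹) := by group
  rw [e]
  exact Subgroup.mul_mem _ (h3 g hg t ht) (h2 t ht _ hx)

theorem solvable_of_commutator_le {G : Type*} [Group G] {K N : Subgroup G} (h : ⁅K, K⁆ ≤ N)
    (hN : Group.IsSolvable N) : Group.IsSolvable K := by
  have h1 : Group.IsSolvable (commutator K) := by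
    have hle : (commutator K).map K.subtype ≤ N := by rwa [Subgroup.map_subtype_commutator]
    exact Group.isSolvable_of_isSolvable_injective
      (f := (Subgroup.inclusion hle).comp (Subgroup.equivMapOfInjective _ _ K.subtype_injective).toMonoidHom)
      ((Subgroup.inclusion_injective hle).comp (MulEquiv.injective _))
  exact Group.isSolvable_of_ker_le_range (commutator K).subtype (Abelianization.of (G := K))
    (by rw [Abelianization.ker_of, Subgroup.range_subtype])

/-- a derived series certificate -/
def serC (c : List Level) (l : List (List Level)) : Bool :=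
  List.rec (motive := fun _ => List Level → Bool) (fun c => stepC c [])
    (fun d _ ih c => band (okC d) (band (stepC c d) (ih d))) l c

theorem solvable_chG {l : List (List Level)} : ∀ {c : List Level}, serC c l = true →
    Group.IsSolvable (chG c).T := by
  induction l with
  | nil =>
    intro c h
    refine solvable_of_commutator_le (commutator_le_of_step (d := []) rfl h) ?_
    rw [gens_nil, CP.grp_nil]; infer_instance
  | cons d l ih =>
    intro c h
    have h' : band (okC d) (band (stepC c d) (serC d l)) = true := h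
    simp only [band_eq, Bool.and_eq_true] at h'
    exact solvable_of_commutator_le (commutator_le_of_step h'.1 h'.2.1) (ih h'.2.2)

/-- exponents -/
def divL : List (List ℕ) := [[], [2], [3], [2, 2], [2, 3], [7], [2, 2, 3], [2, 7], [3, 7], [2, 2, 7],
  [2, 3, 7], [2, 2, 3, 7]]

/-- all data of a group -/
def dataC (c : List Level) (v : List ℕ) : Bool :=
  band (okC c) (band (divL.map (cntP c) == v) (Nat.beq (ordC ops24 c) (v.getD 11 0)))

theorem sol_of_data {c : List Level} {v : List ℕ} (h : dataC c v = true) :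
    (chG c).sol 84 = Nat.card (chG c).T ∧
    ∀ i : Fin 12, (chG c).sol (divL.getD i []).prod = v.getD i 0 := by
  simp only [dataC, band_eq, Bool.and_eq_true, beq_iff_eq, beq_true_iff] at h
  have key : ∀ i : Fin 12, (chG c).sol (divL.getD i []).prod = v.getD i 0 := by
    intro i
    rw [sol_chG h.1, ← h.2.1]
    fin_cases i <;> rfl
  refine ⟨?_, key⟩
  rw [card_chG h.1, h.2.2]
  exact key 11

theorem exists_div (d : ℕ) : ∃ i : Fin 12, Nat.gcd d 84 = (divL.getD i []).prod := by
  have h : Nat.gcd d 84 ∈ Nat.divisors 84 := Nat.mem_divisors.2 ⟨Nat.gcd_dvd_right _ _, by decide⟩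
  revert h
  generalize Nat.gcd d 84 = m
  revert m
  decide

/-- products of chain groups -/
def bigC (l : List (List Level × List ℕ × ℕ)) : FGp := FGp.big (l.map fun x => (chG x.1, x.2.2))

theorem sol_bigC {l : List (List Level × List ℕ × ℕ)} (h : ∀ x ∈ l, dataC x.1 x.2.1 = true) (d : ℕ)
    (i : Fin 12) (hi : Nat.gcd d 84 = (divL.getD i []).prod) :
    (bigC l).sol d = (l.map fun x => x.2.1.getD i 0 ^ x.2.2).prod := by
  rw [bigC, FGp.sol_big, List.map_map]
  congr 1
  refine List.map_congr_left fun x hx => ?_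
  simp only [Function.comp]
  rw [FGp.sol_gcd (sol_of_data (h x hx)).1, hi, (sol_of_data (h x hx)).2]

end

end CfsgH9
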